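import Mathlib
import Cfsg.Prelude.Def_ConjugacyFunctors
import Cfsg.Agent.Helper13.Glaub

/-!
Helper library (seat helper13): local-to-global control of strong fusion where the local
hypothesis is only needed for a class of subgroups containing the centric subgroups of the
Sylow subgroup and closed under the tower construction.
-/

set_option autoImplicit false

namespace Cfsg.Agent.Helper13

open Cfsg Cfsg.Agent.Helper17

section Centric

variable {G : Type*} [Group G] [Finite G] {p : ℕ} [Fact p.Prime]

/-- climbing the tower of a well-placed subgroup in a class `Pr` closed under towers. -/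
theorem ctl_of_wellPlaced_pred (S : Sylow p G) (W : Subgroup G → Subgroup G)
    (hW : IsConjugacyFunctor p W) (Pr : Subgroup G → Prop)
    (htow : ∀ T : Subgroup G, T ≤ (S : Subgroup G) → Pr T →
      Pr (W ((S : Subgroup G) ⊓ Subgroup.normalizer ((T : Subgroup G) : Set G))))
    (hloc : ∀ T : Subgroup G, Pr T → IsWellPlaced p W (S : Subgroup G) T →
      ControlsStrongFusionIn p W (Subgroup.normalizer ((T : Subgroup G) : Set G)))
    (T : Subgroup G) (hT : Pr T) (hwp : IsWellPlaced p W (S : Subgroup G) T) (x : G)
    (hx : x ∈ Subgroup.normalizer (T : Set G)) (P : Subgroup G) (hP : P ≤ T) :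
    ∃ x' ∈ Subgroup.normalizer ((W (S : Subgroup G) : Subgroup G) : Set G),
      ∀ b ∈ P, x' * b * x'⁻¹ = x * b * x⁻¹ := by
  have hTn : ∀ i, T ≤ (S : Subgroup G) ⊓
      Subgroup.normalizer ((functorTower W (S : Subgroup G) T i : Subgroup G) : Set G) :=
    fun i => le_tower_normalizer hW S T S.2 hwp.1 i
  have hTi : ∀ i, functorTower W (S : Subgroup G) T i ≤ (S : Subgroup G) ∧
      Pr (functorTower W (S : Subgroup G) T i) := by
    intro i
    induction i with
    | zero => exact ⟨hwp.1, hT⟩
    | succ i ih =>
      have hp : IsPGroup p ((S : Subgroup G) ⊓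
          Subgroup.normalizer ((functorTower W (S : Subgroup G) T i : Subgroup G) : Set G) : Subgroup G) :=
        S.2.to_le inf_le_left
      have h1 := hW _ hp
      exact ⟨h1.1.trans inf_le_left, htow _ ih.1 ih.2⟩
  have key : ∀ i, ∃ xi ∈ Subgroup.normalizer ((functorTower W (S : Subgroup G) T i : Subgroup G) : Set G),
      ∀ b ∈ P, xi * b * xi⁻¹ = x * b * x⁻¹ := by
    intro i
    induction i with
    | zero => exact ⟨x, hx, fun _ _ => rfl⟩
    | succ i ih =>
      obtain ⟨xi, hxi, hag⟩ := ih
      have hwpi : IsWellPlaced p W (S : Subgroup G) (functorTower W (S : Subgroup G) T i) := by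
        refine ⟨(hTi i).1, fun j => ?_⟩
        rw [functorTower_add]
        exact hwp.2 (i + j)
      have hc := hloc _ (hTi i).2 hwpi
      obtain ⟨x', hx', hag'⟩ := ctl_transfer hW hc _ inf_le_right (S.2.to_le inf_le_left) (hwp.2 i) P
        (hP.trans (hTn i)) xi hxi (by
          rw [cj_eq_of_agree hag]
          exact ((cj_mono hP).trans (cj_eq_self_of_mem_normalizer hx).le).trans (hTn i))
      exact ⟨x', hx'.2, fun b hb => (hag' b hb).trans (hag b hb)⟩
  obtain ⟨x', hx', hag⟩ := key (Nat.card (S : Subgroup G) + 1)
  refine ⟨x', ?_, hag⟩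
  have hst := tower_stab hW (S : Subgroup G) T S.2 (Nat.card (S : Subgroup G))
  have hS : (S : Subgroup G) ⊓ Subgroup.normalizer
      ((functorTower W (S : Subgroup G) T (Nat.card (S : Subgroup G)) : Subgroup G) : Set G) = S := by
    rcases hst with h | h
    · exact h
    · exfalso
      have := Subgroup.card_le_of_le (inf_le_left : (S : Subgroup G) ⊓ Subgroup.normalizer
        ((functorTower W (S : Subgroup G) T (Nat.card (S : Subgroup G)) : Subgroup G) : Set G) ≤ S)
      omega
  have e : functorTower W (S : Subgroup G) T (Nat.card (S : Subgroup G) + 1) = W (S : Subgroup G) := by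
    show W ((S : Subgroup G) ⊓ Subgroup.normalizer
      ((functorTower W (S : Subgroup G) T (Nat.card (S : Subgroup G)) : Subgroup G) : Set G)) = W S
    rw [hS]
  rw [e] at hx'
  exact hx'

/-- local-to-global control of strong fusion from a local hypothesis on a class `Pr` of
subgroups that contains the centric subgroups of `S` and is closed under towers. -/
theorem ctl_centric (S : Sylow p G) (W : Subgroup G → Subgroup G)
    (hW : IsConjugacyFunctor p W) (Pr : Subgroup G → Prop)
    (hcen : ∀ T : Subgroup G, T ≤ (S : Subgroup G) →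
      (S : Subgroup G) ⊓ Subgroup.centralizer (T : Set G) ≤ T → Pr T)
    (htow : ∀ T : Subgroup G, T ≤ (S : Subgroup G) → Pr T →
      Pr (W ((S : Subgroup G) ⊓ Subgroup.normalizer ((T : Subgroup G) : Set G))))
    (hloc : ∀ T : Subgroup G, Pr T → IsWellPlaced p W (S : Subgroup G) T →
      ControlsStrongFusionIn p W (Subgroup.normalizer ((T : Subgroup G) : Set G)))
    (Q : Subgroup G) (hQ : Q ≤ (S : Subgroup G)) (g : G) (hg : cj g Q ≤ (S : Subgroup G)) :
    ActsLike (Subgroup.normalizer ((W (S : Subgroup G) : Subgroup G) : Set G)) Q g := by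
  refine wellPlaced_centric_gen S W hW
    (fun P g => ActsLike (Subgroup.normalizer ((W (S : Subgroup G) : Subgroup G) : Set G)) P g)
    (fun P _ => ActsLike.one _ P)
    (fun P g₁ g₂ h1 h2 => h1.trans h2)
    (fun P Q' g h hQ' => h.mono hQ')
    (fun P g k h hk => h.congr hk)
    (fun T hwp hc x hx =>
      ctl_of_wellPlaced_pred S W hW Pr htow hloc T (hcen T hwp.1 hc) hwp x hx T le_rfl)
    (Nat.card (S : Subgroup G) - Nat.card Q) Q hQ
    (by have := Subgroup.card_le_of_le hQ; omega) g hg

end Centric

end Cfsg.Agent.Helper13
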