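import Mathlib

set_option autoImplicit false

namespace Cfsg.Agent.Helper13

/-- averaging a 1-cocycle that vanishes on `T` over the cosets of `T` -/
theorem cocycle_avg {G A : Type*} [Group G] [CommGroup A] (T : Subgroup G) [T.FiniteIndex]
    (φ : G →* MulAut A) (d : G → A) (hd : ∀ g h, d (g * h) = d g * φ g (d h))
    (hT : ∀ t ∈ T, d t = 1) :
    ∃ z₀ : A, ∀ g : G, (d g) ^ T.index = z₀ * (φ g z₀)⁻¹ := by
  classical
  haveI : Fintype (G ⧸ T) := Subgroup.fintypeQuotientOfFiniteIndex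
  refine ⟨∏ c : G ⧸ T, d c.out, fun g => ?_⟩
  have hdT : ∀ g t, t ∈ T → d (g * t) = d g := by
    intro g t ht
    rw [hd, hT t ht, map_one, mul_one]
  have h1 : ∏ c : G ⧸ T, d (g * c.out) = ∏ c : G ⧸ T, d c.out := by
    have h2 : ∀ c : G ⧸ T, d (g * c.out) = d ((g • c).out) := by
      intro c
      have e : g • c = QuotientGroup.mk (g * c.out) := by
        conv_lhs => rw [← QuotientGroup.out_eq' c]
        rfl
      obtain ⟨t, ht⟩ := QuotientGroup.mk_out_eq_mul T (g * c.out)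
      rw [e, ht, hdT _ _ t.2]
    simp_rw [h2]
    exact Equiv.prod_comp (MulAction.toPerm g : (G ⧸ T) ≃ (G ⧸ T)) (fun c : G ⧸ T => d c.out)
  have h3 : ∏ c : G ⧸ T, d (g * c.out) = (d g) ^ T.index * φ g (∏ c : G ⧸ T, d c.out) := by
    simp_rw [hd]
    rw [Finset.prod_mul_distrib, Finset.prod_const, Finset.card_univ, map_prod]
    congr 1
    rw [Subgroup.index, Nat.card_eq_fintype_card]
  rw [h1] at h3
  rw [eq_mul_inv_iff_mul_eq]; exact h3.symm

/-- an automorphism that is trivial on `T` and on an abelian normal subgroup `Z` of order prime to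
`|G : T|`, and moves every element by an element of `Z`, is conjugation by an element of `Z` -/
theorem inner_of_cocycle {G : Type*} [Group G] [Finite G] (T Z : Subgroup G) [hZn : Z.Normal]
    (hZc : ∀ a ∈ Z, ∀ b ∈ Z, a * b = b * a) (hcop : Nat.Coprime T.index (Nat.card Z))
    (α : MulAut G) (hT : ∀ t ∈ T, α t = t) (hδ : ∀ g, α g * g⁻¹ ∈ Z) :
    ∃ z ∈ Z, ∀ g, α g = z * g * z⁻¹ := by
  classical
  letI cg : CommGroup ↥Z := { (inferInstance : Group ↥Z) with
    mul_comm := fun a b => Subtype.ext (hZc a a.2 b b.2) }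
  let d : G → ↥Z := fun g => ⟨α g * g⁻¹, hδ g⟩
  have hd : ∀ g h, d (g * h) = d g * (MulAut.conjNormal g : MulAut ↥Z) (d h) := by
    intro g h
    apply Subtype.ext
    show α (g * h) * (g * h)⁻¹ = (α g * g⁻¹) * ((MulAut.conjNormal g (d h) : ↥Z) : G)
    rw [MulAut.conjNormal_apply]
    show α (g * h) * (g * h)⁻¹ = (α g * g⁻¹) * (g * (α h * h⁻¹) * g⁻¹)
    rw [map_mul]; group
  have hdT : ∀ t ∈ T, d t = 1 := by
    intro t ht
    apply Subtype.ext
    show α t * t⁻¹ = 1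
    rw [hT t ht, mul_inv_cancel]
  obtain ⟨z₀, hz₀⟩ := cocycle_avg T (MulAut.conjNormal (H := Z)) d hd hdT
  have hb : (1 : ℤ) = (T.index : ℤ) * Nat.gcdA T.index (Nat.card Z) +
      (Nat.card Z : ℤ) * Nat.gcdB T.index (Nat.card Z) := by
    have := Nat.gcd_eq_gcd_ab T.index (Nat.card Z)
    rw [Nat.Coprime.gcd_eq_one hcop] at this
    exact_mod_cast this
  refine ⟨((z₀ ^ (Nat.gcdA T.index (Nat.card Z)) : ↥Z) : G), (z₀ ^ (Nat.gcdA T.index (Nat.card Z))).2, ?_⟩
  intro g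
  have e1 : d g = (d g ^ T.index) ^ (Nat.gcdA T.index (Nat.card Z)) := by
    have h0 : (d g) ^ ((T.index : ℤ) * Nat.gcdA T.index (Nat.card Z) +
        (Nat.card Z : ℤ) * Nat.gcdB T.index (Nat.card Z)) = d g := by rw [← hb, zpow_one]
    rw [zpow_add, zpow_mul, zpow_mul, zpow_natCast, zpow_natCast, pow_card_eq_one', one_zpow,
      mul_one] at h0
    exact h0.symm
  rw [hz₀ g, mul_zpow, inv_zpow, ← map_zpow] at e1
  have e2 : α g * g⁻¹ = ((z₀ ^ (Nat.gcdA T.index (Nat.card Z)) : ↥Z) : G) *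
      (g * ((z₀ ^ (Nat.gcdA T.index (Nat.card Z)) : ↥Z) : G) * g⁻¹)⁻¹ := by
    have := congrArg Subtype.val e1
    rw [Subgroup.coe_mul, Subgroup.coe_inv, MulAut.conjNormal_apply] at this
    exact this
  calc α g = (α g * g⁻¹) * g := by group
    _ = (((z₀ ^ (Nat.gcdA T.index (Nat.card Z)) : ↥Z) : G) *
      (g * ((z₀ ^ (Nat.gcdA T.index (Nat.card Z)) : ↥Z) : G) * g⁻¹)⁻¹) * g := by rw [e2]
    _ = _ := by group

end Cfsg.Agent.Helper13
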