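import Mathlib
import Cfsg.Prelude.Def_ConjugacyFunctors
import Cfsg.Agent.Helper13.Fusion5

set_option autoImplicit false

namespace Cfsg.Agent.Helper13

open Cfsg Cfsg.Agent.Helper17
open scoped commutatorElement

section Fusion6

variable {G : Type*} [Group G]

/-- step predicate of a pair of functors: inside `H`, normalize `W T` or centralize `V T` -/
def pst (W V : Subgroup G → Subgroup G) (H T : Subgroup G) : G → Prop :=
  fun y => y ∈ H ⊓ Subgroup.normalizer ((W T : Subgroup G) : Set G) ∨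
    y ∈ H ⊓ Subgroup.centralizer ((V T : Subgroup G) : Set G)

theorem pst_inv (W V : Subgroup G → Subgroup G) (H T : Subgroup G) (y : G) (h : pst W V H T y) :
    pst W V H T y⁻¹ := by
  rcases h with h | h
  · exact Or.inl (Subgroup.inv_mem _ h)
  · exact Or.inr (Subgroup.inv_mem _ h)

/-- pair control of strong fusion in `H` with respect to the `p`-subgroup `Q` -/
def pairCtl (W V : Subgroup G → Subgroup G) (H Q : Subgroup G) : Prop :=
  ∀ R : Subgroup G, R ≤ Q → ∀ a ∈ H, cj a R ≤ Q → FGood (pst W V H Q) Q R a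

/-- pair control of transfer in `H` with respect to the `p`-subgroup `Q` -/
def pairTr (W V : Subgroup G → Subgroup G) (H Q : Subgroup G) : Prop :=
  Q ⊓ ⁅H, H⁆ ≤
    (Q ⊓ ⁅H ⊓ Subgroup.normalizer ((W Q : Subgroup G) : Set G),
      H ⊓ Subgroup.normalizer ((W Q : Subgroup G) : Set G)⁆) ⊔
    (Q ⊓ ⁅H ⊓ Subgroup.centralizer ((V Q : Subgroup G) : Set G),
      H ⊓ Subgroup.centralizer ((V Q : Subgroup G) : Set G)⁆)

variable {p : ℕ}

theorem conj_mem_centralizer_V {V : Subgroup G → Subgroup G} (hV : IsConjugacyFunctor p V)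
    {T : Subgroup G} (hT : IsPGroup p T) (h₀ y : G)
    (hy : y ∈ Subgroup.centralizer ((V (cj h₀ T) : Subgroup G) : Set G)) :
    h₀⁻¹ * y * h₀ ∈ Subgroup.centralizer ((V T : Subgroup G) : Set G) := by
  have h1 : V (cj h₀ T) = cj h₀ (V T) := (hV T hT).2.2 h₀
  rw [h1, centralizer_cj, mem_cj] at hy
  exact hy

theorem cj_transfer_term_V {V : Subgroup G → Subgroup G} (hV : IsConjugacyFunctor p V)
    {H T₁ : Subgroup G} (hp1 : IsPGroup p T₁) {h₀ : G} (hh₀ : h₀ ∈ H) :
    cj h₀ (T₁ ⊓ ⁅H ⊓ Subgroup.centralizer ((V T₁ : Subgroup G) : Set G),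
      H ⊓ Subgroup.centralizer ((V T₁ : Subgroup G) : Set G)⁆) =
    cj h₀ T₁ ⊓ ⁅H ⊓ Subgroup.centralizer ((V (cj h₀ T₁) : Subgroup G) : Set G),
      H ⊓ Subgroup.centralizer ((V (cj h₀ T₁) : Subgroup G) : Set G)⁆ := by
  have h1 : V (cj h₀ T₁) = cj h₀ (V T₁) := (hV T₁ hp1).2.2 h₀
  rw [cj_inf, cj_commutator, cj_inf, cj_eq_self_of_mem hh₀, h1, centralizer_cj]

variable [Finite G] [Fact p.Prime]

theorem pairCtl_transfer {W V : Subgroup G → Subgroup G} (hW : IsConjugacyFunctor p W)
    (hV : IsConjugacyFunctor p V) {H Q : Subgroup G} (h : pairCtl W V H Q) (hQH : Q ≤ H)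
    (hQp : IsPGroup p Q) (hQi : ¬ p ∣ Q.relIndex H) (T₁ : Subgroup G) (h1 : T₁ ≤ H)
    (hp1 : IsPGroup p T₁) (hi1 : ¬ p ∣ T₁.relIndex H) : pairCtl W V H T₁ := by
  obtain ⟨h₀, hh₀, he⟩ := exists_cj_eq_of_relIndex H T₁ Q h1 hQH hp1 hQp hi1 hQi
  intro R hR a ha haR
  obtain ⟨g', hch, hag⟩ := h (cj h₀ R) (by rw [← he]; exact cj_mono hR) (h₀ * a * h₀⁻¹)
    (H.mul_mem (H.mul_mem hh₀ ha) (H.inv_mem hh₀)) (by
      have e : cj (h₀ * a * h₀⁻¹) (cj h₀ R) = cj h₀ (cj a R) := by
        rw [← cj_mul, ← cj_mul]; congr 1; group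
      rw [e, ← he]; exact cj_mono haR)
  have hch2 := hch.conj (st' := pst W V H T₁) (S' := T₁) h₀⁻¹ (by
    intro y hy
    rcases hy with hy | hy
    · refine Or.inl ⟨H.mul_mem (H.mul_mem (H.inv_mem hh₀) hy.1) (H.inv_mem (H.inv_mem hh₀)), ?_⟩
      rw [inv_inv]
      apply conj_mem_normalizer_W hW hp1
      rw [he]; exact hy.2
    · refine Or.inr ⟨H.mul_mem (H.mul_mem (H.inv_mem hh₀) hy.1) (H.inv_mem (H.inv_mem hh₀)), ?_⟩
      rw [inv_inv]
      apply conj_mem_centralizer_V hV hp1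
      rw [he]; exact hy.2) (by rw [← he, cj_inv_cj])
  rw [cj_inv_cj] at hch2
  refine ⟨_, hch2, ?_⟩
  intro b hb
  have h3 := hag (h₀ * b * h₀⁻¹) (conj_mem_cj hb)
  calc h₀⁻¹ * g' * h₀⁻¹⁻¹ * b * (h₀⁻¹ * g' * h₀⁻¹⁻¹)⁻¹
      = h₀⁻¹ * (g' * (h₀ * b * h₀⁻¹) * g'⁻¹) * h₀ := by group
    _ = h₀⁻¹ * (h₀ * a * h₀⁻¹ * (h₀ * b * h₀⁻¹) * (h₀ * a * h₀⁻¹)⁻¹) * h₀ := by rw [h3]
    _ = a * b * a⁻¹ := by group

theorem pairTr_transfer {W V : Subgroup G → Subgroup G} (hW : IsConjugacyFunctor p W)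
    (hV : IsConjugacyFunctor p V) {H Q : Subgroup G} (h : pairTr W V H Q) (hQH : Q ≤ H)
    (hQp : IsPGroup p Q) (hQi : ¬ p ∣ Q.relIndex H) (T₁ : Subgroup G) (h1 : T₁ ≤ H)
    (hp1 : IsPGroup p T₁) (hi1 : ¬ p ∣ T₁.relIndex H) : pairTr W V H T₁ := by
  obtain ⟨h₀, hh₀, he⟩ := exists_cj_eq_of_relIndex H T₁ Q h1 hQH hp1 hQp hi1 hQi
  unfold pairTr at h ⊢
  have h3 := cj_inf_commutator_self (T₁ := T₁) hh₀
  have h2 := cj_transfer_term hW (H := H) hp1 hh₀
  have h4 := cj_transfer_term_V hV (H := H) hp1 hh₀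
  rw [he] at h2 h3 h4
  rw [← h3, ← h2, ← h4, ← cj_sup] at h
  have := cj_mono (g := h₀⁻¹) h
  rwa [cj_inv_cj, cj_inv_cj] at this

omit [Finite G] in
theorem tower_le' (S : Sylow p G) {W : Subgroup G → Subgroup G} (hW : IsConjugacyFunctor p W)
    (T : Subgroup G) (hTS : T ≤ (S : Subgroup G)) (i : ℕ) :
    functorTower W (S : Subgroup G) T i ≤ (S : Subgroup G) := by
  cases i with
  | zero => exact hTS
  | succ i =>
    have hp : IsPGroup p ((S : Subgroup G) ⊓
        Subgroup.normalizer ((functorTower W (S : Subgroup G) T i : Subgroup G) : Set G) : Subgroup G) :=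
      S.2.to_le inf_le_left
    exact (hW _ hp).1.trans inf_le_left

theorem tower_center_le (S : Sylow p G) {W : Subgroup G → Subgroup G} (hW : IsConjugacyFunctor p W)
    (hWZ : ∀ H : Subgroup G, IsPGroup p ↥H → H ⊓ Subgroup.centralizer ((H : Subgroup G) : Set G) ≤ W H)
    (T : Subgroup G) (hTS : T ≤ (S : Subgroup G))
    (hZT : (S : Subgroup G) ⊓ Subgroup.centralizer ((S : Subgroup G) : Set G) ≤ T) (i : ℕ) :
    (S : Subgroup G) ⊓ Subgroup.centralizer ((S : Subgroup G) : Set G) ≤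
      functorTower W (S : Subgroup G) T i := by
  cases i with
  | zero => exact hZT
  | succ i =>
    have hp : IsPGroup p ((S : Subgroup G) ⊓
        Subgroup.normalizer ((functorTower W (S : Subgroup G) T i : Subgroup G) : Set G) : Subgroup G) :=
      S.2.to_le inf_le_left
    refine le_trans (le_inf (hZT.trans (le_tower_normalizer hW S T S.2 hTS i)) ?_) (hWZ _ hp)
    exact inf_le_right.trans (Subgroup.centralizer_le (fun y hy => (Subgroup.mem_inf.mp hy).1))

theorem tower_top (S : Sylow p G) {W : Subgroup G → Subgroup G} (hW : IsConjugacyFunctor p W)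
    (T : Subgroup G) :
    (S : Subgroup G) ⊓ Subgroup.normalizer
      ((functorTower W (S : Subgroup G) T (Nat.card (S : Subgroup G) + 1) : Subgroup G) : Set G) = S := by
  have hst := tower_stab hW (S : Subgroup G) T S.2 (Nat.card (S : Subgroup G) + 1)
  rcases hst with h | h
  · exact h
  · exfalso
    have := Subgroup.card_le_of_le (inf_le_left : (S : Subgroup G) ⊓ Subgroup.normalizer
      ((functorTower W (S : Subgroup G) T (Nat.card (S : Subgroup G) + 1) : Subgroup G) : Set G) ≤ S)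
    omega

theorem V_top_le (S : Sylow p G) {W V : Subgroup G → Subgroup G} (hW : IsConjugacyFunctor p W)
    (hVmono : ∀ H K : Subgroup G, IsPGroup p ↥H → IsPGroup p ↥K → H ≠ ⊥ → K ≠ ⊥ →
      H ⊓ Subgroup.centralizer ((H : Subgroup G) : Set G) ≤
        K ⊓ Subgroup.centralizer ((K : Subgroup G) : Set G) → V H ≤ V K)
    (hS : (S : Subgroup G) ≠ ⊥) (T : Subgroup G) (hTS : T ≤ (S : Subgroup G))
    (hZT : (S : Subgroup G) ⊓ Subgroup.centralizer ((S : Subgroup G) : Set G) ≤ T) (i : ℕ) :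
    V (S : Subgroup G) ≤ V ((S : Subgroup G) ⊓
      Subgroup.normalizer ((functorTower W (S : Subgroup G) T i : Subgroup G) : Set G)) := by
  apply hVmono _ _ S.2 (S.2.to_le inf_le_left) hS
  · intro hbot
    by_cases hTi : functorTower W (S : Subgroup G) T i = ⊥
    · rw [hTi] at hbot
      have h1 : Subgroup.normalizer (((⊥ : Subgroup G) : Subgroup G) : Set G) = ⊤ :=
        Subgroup.normalizer_eq_top_iff.mpr inferInstance
      rw [h1, inf_top_eq] at hbot
      exact hS hbot
    · apply hTi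
      have h1 : functorTower W (S : Subgroup G) T i ≤ (S : Subgroup G) ⊓
          Subgroup.normalizer ((functorTower W (S : Subgroup G) T i : Subgroup G) : Set G) :=
        le_inf (tower_le' S hW T hTS i) Subgroup.le_normalizer
      rw [hbot] at h1
      exact le_bot_iff.mp h1
  · refine le_inf (le_inf inf_le_left ((hZT.trans (le_tower_normalizer hW S T S.2 hTS i)).trans inf_le_right)) ?_
    exact inf_le_right.trans (Subgroup.centralizer_le (fun y hy => (Subgroup.mem_inf.mp hy).1))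

/-- climbing the tower: strong fusion for a pair of functors -/
theorem pair_tower (S : Sylow p G) (W V : Subgroup G → Subgroup G) (hW : IsConjugacyFunctor p W)
    (hWZ : ∀ H : Subgroup G, IsPGroup p ↥H → H ⊓ Subgroup.centralizer ((H : Subgroup G) : Set G) ≤ W H)
    (hVmono : ∀ H K : Subgroup G, IsPGroup p ↥H → IsPGroup p ↥K → H ≠ ⊥ → K ≠ ⊥ →
      H ⊓ Subgroup.centralizer ((H : Subgroup G) : Set G) ≤
        K ⊓ Subgroup.centralizer ((K : Subgroup G) : Set G) → V H ≤ V K)
    (hS : (S : Subgroup G) ≠ ⊥)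
    (hloc : ∀ H : Subgroup G, (S : Subgroup G) ⊓ Subgroup.centralizer ((S : Subgroup G) : Set G) ≤ H →
      H ≤ (S : Subgroup G) →
      ¬ p ∣ ((S : Subgroup G) ⊓ Subgroup.normalizer ((H : Subgroup G) : Set G)).relIndex
        (Subgroup.normalizer ((H : Subgroup G) : Set G)) →
      pairCtl W V (Subgroup.normalizer ((H : Subgroup G) : Set G))
        ((S : Subgroup G) ⊓ Subgroup.normalizer ((H : Subgroup G) : Set G)))
    (T : Subgroup G) (hwp : IsWellPlaced p W (S : Subgroup G) T)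
    (hZT : (S : Subgroup G) ⊓ Subgroup.centralizer ((S : Subgroup G) : Set G) ≤ T) :
    ∀ (m i : ℕ), i + m = Nat.card (S : Subgroup G) + 1 →
      ∀ b ∈ Subgroup.normalizer ((functorTower W (S : Subgroup G) T i : Subgroup G) : Set G),
      ∀ R : Subgroup G, R ≤ (S : Subgroup G) ⊓
        Subgroup.normalizer ((functorTower W (S : Subgroup G) T i : Subgroup G) : Set G) →
      cj b R ≤ (S : Subgroup G) ⊓
        Subgroup.normalizer ((functorTower W (S : Subgroup G) T i : Subgroup G) : Set G) →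
      FGood (pst W V ⊤ (S : Subgroup G)) (S : Subgroup G) R b := by
  intro m
  induction m with
  | zero =>
    intro i hi b hb R hR hbR
    have hi' : i = Nat.card (S : Subgroup G) + 1 := by omega
    subst hi'
    have hc := hloc _ (tower_center_le S hW hWZ T hwp.1 hZT (Nat.card (S : Subgroup G) + 1))
      (tower_le' S hW T hwp.1 (Nat.card (S : Subgroup G) + 1)) (hwp.2 (Nat.card (S : Subgroup G) + 1))
    have hSi := tower_top S hW T
    rw [hSi] at hc hR hbR
    obtain ⟨g', hch, hag⟩ := hc R hR b hb hbR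
    exact ⟨g', hch.imp (fun y hy => hy.imp (fun h => ⟨Subgroup.mem_top _, h.2⟩)
      (fun h => ⟨Subgroup.mem_top _, h.2⟩)), hag⟩
  | succ m ih =>
    intro i hi b hb R hR hbR
    have hc := hloc _ (tower_center_le S hW hWZ T hwp.1 hZT i) (tower_le' S hW T hwp.1 i) (hwp.2 i)
    obtain ⟨g', hch, hag⟩ := hc R hR b hb hbR
    refine (hch.good_of_steps (S := (S : Subgroup G)) inf_le_left ?_).congr
      (fun b hb => (hag b hb).symm)
    intro y Q hy hQ hyQ
    rcases hy with hy | hy
    · exact ih (i + 1) (by omega) y hy.2 Q (hQ.trans (tower_mono_succ hW S T S.2 i))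
        (hyQ.trans (tower_mono_succ hW S T S.2 i))
    · refine FGood.single (Or.inr ⟨Subgroup.mem_top _, ?_⟩) (hQ.trans inf_le_left)
        (hyQ.trans inf_le_left)
      exact Subgroup.centralizer_le (V_top_le S hW hVmono hS T hwp.1 hZT i) hy.2

/-- local-to-global control of strong fusion for a pair of functors -/
theorem pair_ctl_top (S : Sylow p G) (W V : Subgroup G → Subgroup G) (hW : IsConjugacyFunctor p W)
    (hWZ : ∀ H : Subgroup G, IsPGroup p ↥H → H ⊓ Subgroup.centralizer ((H : Subgroup G) : Set G) ≤ W H)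
    (hVmono : ∀ H K : Subgroup G, IsPGroup p ↥H → IsPGroup p ↥K → H ≠ ⊥ → K ≠ ⊥ →
      H ⊓ Subgroup.centralizer ((H : Subgroup G) : Set G) ≤
        K ⊓ Subgroup.centralizer ((K : Subgroup G) : Set G) → V H ≤ V K)
    (hS : (S : Subgroup G) ≠ ⊥)
    (hloc : ∀ H : Subgroup G, (S : Subgroup G) ⊓ Subgroup.centralizer ((S : Subgroup G) : Set G) ≤ H →
      H ≤ (S : Subgroup G) →
      ¬ p ∣ ((S : Subgroup G) ⊓ Subgroup.normalizer ((H : Subgroup G) : Set G)).relIndex
        (Subgroup.normalizer ((H : Subgroup G) : Set G)) →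
      pairCtl W V (Subgroup.normalizer ((H : Subgroup G) : Set G))
        ((S : Subgroup G) ⊓ Subgroup.normalizer ((H : Subgroup G) : Set G)))
    (R : Subgroup G) (hR : R ≤ (S : Subgroup G)) (a : G) (haR : cj a R ≤ (S : Subgroup G)) :
    FGood (pst W V ⊤ (S : Subgroup G)) (S : Subgroup G) R a := by
  refine wellPlaced_centric_gen S W hW (FGood (pst W V ⊤ (S : Subgroup G)) (S : Subgroup G))
    (fun P h => FGood.one h) (fun P g₁ g₂ h1 h2 => h1.trans h2) (fun P Q g h hQ => h.mono hQ)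
    (fun P g k h hk => h.congr hk) ?_ (Nat.card (S : Subgroup G) - Nat.card R) R hR
    (by have := Subgroup.card_le_of_le hR; omega) a haR
  intro T hwp hcen x hx
  have hZT : (S : Subgroup G) ⊓ Subgroup.centralizer ((S : Subgroup G) : Set G) ≤ T :=
    le_trans (inf_le_inf_left _ (Subgroup.centralizer_le hwp.1)) hcen
  have hT0 : T ≤ (S : Subgroup G) ⊓ Subgroup.normalizer ((T : Subgroup G) : Set G) :=
    le_inf hwp.1 Subgroup.le_normalizer
  exact pair_tower S W V hW hWZ hVmono hS hloc T hwp hZT (Nat.card (S : Subgroup G) + 1) 0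
    (by omega) x hx T hT0 ((cj_eq_self_of_mem_normalizer hx).le.trans hT0)

/-- the target subgroup for pair transfer -/
def pairD (W V : Subgroup G → Subgroup G) (S : Subgroup G) : Subgroup G :=
  (S ⊓ ⁅(⊤ : Subgroup G) ⊓ Subgroup.normalizer ((W S : Subgroup G) : Set G),
      (⊤ : Subgroup G) ⊓ Subgroup.normalizer ((W S : Subgroup G) : Set G)⁆) ⊔
    (S ⊓ ⁅(⊤ : Subgroup G) ⊓ Subgroup.centralizer ((V S : Subgroup G) : Set G),
      (⊤ : Subgroup G) ⊓ Subgroup.centralizer ((V S : Subgroup G) : Set G)⁆)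

/-- climbing the tower: transfer for a pair of functors -/
theorem pair_tower_tr (S : Sylow p G) (W V : Subgroup G → Subgroup G) (hW : IsConjugacyFunctor p W)
    (hWZ : ∀ H : Subgroup G, IsPGroup p ↥H → H ⊓ Subgroup.centralizer ((H : Subgroup G) : Set G) ≤ W H)
    (hVmono : ∀ H K : Subgroup G, IsPGroup p ↥H → IsPGroup p ↥K → H ≠ ⊥ → K ≠ ⊥ →
      H ⊓ Subgroup.centralizer ((H : Subgroup G) : Set G) ≤
        K ⊓ Subgroup.centralizer ((K : Subgroup G) : Set G) → V H ≤ V K)
    (hS : (S : Subgroup G) ≠ ⊥)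
    (hloc : ∀ H : Subgroup G, (S : Subgroup G) ⊓ Subgroup.centralizer ((S : Subgroup G) : Set G) ≤ H →
      H ≤ (S : Subgroup G) →
      ¬ p ∣ ((S : Subgroup G) ⊓ Subgroup.normalizer ((H : Subgroup G) : Set G)).relIndex
        (Subgroup.normalizer ((H : Subgroup G) : Set G)) →
      pairTr W V (Subgroup.normalizer ((H : Subgroup G) : Set G))
        ((S : Subgroup G) ⊓ Subgroup.normalizer ((H : Subgroup G) : Set G)))
    (T : Subgroup G) (hwp : IsWellPlaced p W (S : Subgroup G) T)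
    (hZT : (S : Subgroup G) ⊓ Subgroup.centralizer ((S : Subgroup G) : Set G) ≤ T) :
    ∀ (m i : ℕ), i + m = Nat.card (S : Subgroup G) + 1 →
      ((S : Subgroup G) ⊓
        Subgroup.normalizer ((functorTower W (S : Subgroup G) T i : Subgroup G) : Set G)) ⊓
        ⁅Subgroup.normalizer ((functorTower W (S : Subgroup G) T i : Subgroup G) : Set G),
          Subgroup.normalizer ((functorTower W (S : Subgroup G) T i : Subgroup G) : Set G)⁆ ≤
      pairD W V (S : Subgroup G) := by
  intro m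
  induction m with
  | zero =>
    intro i hi
    have hi' : i = Nat.card (S : Subgroup G) + 1 := by omega
    subst hi'
    have hc := hloc _ (tower_center_le S hW hWZ T hwp.1 hZT (Nat.card (S : Subgroup G) + 1))
      (tower_le' S hW T hwp.1 (Nat.card (S : Subgroup G) + 1)) (hwp.2 (Nat.card (S : Subgroup G) + 1))
    have hSi := tower_top S hW T
    unfold pairTr at hc
    rw [hSi] at hc ⊢
    refine hc.trans (sup_le_sup ?_ ?_)
    · exact inf_le_inf_left _ (Subgroup.commutator_mono (inf_le_inf_right _ le_top)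
        (inf_le_inf_right _ le_top))
    · exact inf_le_inf_left _ (Subgroup.commutator_mono (inf_le_inf_right _ le_top)
        (inf_le_inf_right _ le_top))
  | succ m ih =>
    intro i hi
    have hc := hloc _ (tower_center_le S hW hWZ T hwp.1 hZT i) (tower_le' S hW T hwp.1 i) (hwp.2 i)
    unfold pairTr at hc
    refine hc.trans (sup_le ?_ ?_)
    · refine le_trans ?_ (ih (i + 1) (by omega))
      exact inf_le_inf (tower_mono_succ hW S T S.2 i)
        (Subgroup.commutator_mono inf_le_right inf_le_right)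
    · refine le_trans ?_ (le_sup_right : _ ≤ pairD W V (S : Subgroup G))
      refine inf_le_inf inf_le_left (Subgroup.commutator_mono ?_ ?_)
      · exact le_inf le_top (inf_le_right.trans
          (Subgroup.centralizer_le (V_top_le S hW hVmono hS T hwp.1 hZT i)))
      · exact le_inf le_top (inf_le_right.trans
          (Subgroup.centralizer_le (V_top_le S hW hVmono hS T hwp.1 hZT i)))

/-- local-to-global control of transfer for a pair of functors -/
theorem pair_tr_top (S : Sylow p G) (W V : Subgroup G → Subgroup G) (hW : IsConjugacyFunctor p W)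
    (hWZ : ∀ H : Subgroup G, IsPGroup p ↥H → H ⊓ Subgroup.centralizer ((H : Subgroup G) : Set G) ≤ W H)
    (hVmono : ∀ H K : Subgroup G, IsPGroup p ↥H → IsPGroup p ↥K → H ≠ ⊥ → K ≠ ⊥ →
      H ⊓ Subgroup.centralizer ((H : Subgroup G) : Set G) ≤
        K ⊓ Subgroup.centralizer ((K : Subgroup G) : Set G) → V H ≤ V K)
    (hS : (S : Subgroup G) ≠ ⊥)
    (hloc : ∀ H : Subgroup G, (S : Subgroup G) ⊓ Subgroup.centralizer ((S : Subgroup G) : Set G) ≤ H →
      H ≤ (S : Subgroup G) →
      ¬ p ∣ ((S : Subgroup G) ⊓ Subgroup.normalizer ((H : Subgroup G) : Set G)).relIndex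
        (Subgroup.normalizer ((H : Subgroup G) : Set G)) →
      pairTr W V (Subgroup.normalizer ((H : Subgroup G) : Set G))
        ((S : Subgroup G) ⊓ Subgroup.normalizer ((H : Subgroup G) : Set G))) :
    (S : Subgroup G) ⊓ ⁅(⊤ : Subgroup G), ⊤⁆ ≤ pairD W V (S : Subgroup G) := by
  apply focal_le S
  intro x hx u hu
  have hP : Subgroup.closure ({x} : Set G) ≤ (S : Subgroup G) := by
    rw [Subgroup.closure_le]
    rintro _ rfl
    exact hx
  have hPu : cj u (Subgroup.closure ({x} : Set G)) ≤ (S : Subgroup G) := by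
    apply cj_closure_le
    rintro _ ⟨a, rfl, rfl⟩
    exact hu
  refine wellPlaced_centric_gen S W hW (Foc (pairD W V (S : Subgroup G)))
    (fun P _ => foc_one _ P) (foc_trans _) (foc_mono _) (foc_congr _) ?_
    (Nat.card (S : Subgroup G) - Nat.card (Subgroup.closure ({x} : Set G))) _ hP
    (by have := Subgroup.card_le_of_le hP; omega) u hPu x (Subgroup.subset_closure rfl)
  intro T hwp hcen y hy b hb
  have hZT : (S : Subgroup G) ⊓ Subgroup.centralizer ((S : Subgroup G) : Set G) ≤ T :=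
    le_trans (inf_le_inf_left _ (Subgroup.centralizer_le hwp.1)) hcen
  exact pair_tower_tr S W V hW hWZ hVmono hS hloc T hwp hZT (Nat.card (S : Subgroup G) + 1) 0
    (by omega) (focal_step_mem hwp.1 hb hy)

end Fusion6

end Cfsg.Agent.Helper13
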