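import Mathlib
import Cfsg.Prelude
import Cfsg.Agent.Helper13.HH
import Cfsg.Agent.Helper13.PPrime
import Cfsg.Agent.Helper13.Fusion5
import Cfsg.Agent.Helper13.NPC

set_option autoImplicit false

namespace Cfsg.Agent.Helper13

open Cfsg Cfsg.Agent.Helper17

section HH2

/-- a subgroup of index prime to `p` contains a conjugate of every Sylow `p`-subgroup. -/
theorem exists_cj_le_of_index {Z : Type*} [Group Z] [Finite Z] {p : ℕ} [hp : Fact p.Prime]
    (S : Sylow p Z) (H : Subgroup Z) (h : ¬ p ∣ H.index) : ∃ g : Z, cj g (S : Subgroup Z) ≤ H := by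
  obtain ⟨T₁⟩ : Nonempty (Sylow p ↥H) := inferInstance
  obtain ⟨g, hg⟩ := exists_le_cj_sylow (sylowImage_isPGroup T₁) S
  refine ⟨g, ?_⟩
  have hcard : Nat.card ↥(cj g (S : Subgroup Z)) ≤ Nat.card ↥(sylowImage T₁) := by
    rw [card_cj, Sylow.card_eq_multiplicity]
    have h1 : Nat.card ↥(sylowImage T₁) = Nat.card ↥(T₁ : Subgroup ↥H) :=
      Subgroup.card_subtype _ _
    rw [h1, Sylow.card_eq_multiplicity]
    have h2 : (Nat.card Z).factorization p = (Nat.card ↥H).factorization p := by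
      rw [← H.card_mul_index, Nat.factorization_mul Nat.card_pos.ne' Subgroup.index_ne_zero_of_finite]
      simp [Nat.factorization_eq_zero_of_not_dvd h]
    rw [h2]
  have h3 := Subgroup.eq_of_le_of_card_ge hg hcard
  rw [← h3]
  exact sylowImage_le T₁

/-- structure of a group with a normal `p`-complement `N` in which a Sylow `p`-subgroup is a
maximal subgroup: `N` is abelian and has no proper nontrivial `T`-invariant subgroups. -/
theorem coatom_sylow_struct {Z : Type*} [Group Z] [Finite Z] {p : ℕ} [hp : Fact p.Prime]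
    (T : Sylow p Z) (hT : IsCoatom (T : Subgroup Z)) (N : Subgroup Z) [hNn : N.Normal]
    (hNc : (Nat.card N).Coprime p) (k : ℕ) (hNi : N.index = p ^ k) :
    (T : Subgroup Z) ⊓ N = ⊥ ∧ (T : Subgroup Z) ⊔ N = ⊤ ∧
    (∀ A : Subgroup Z, A ≤ N → (T : Subgroup Z) ≤ Subgroup.normalizer (A : Set Z) →
      A = ⊥ ∨ A = N) ∧
    (∀ a ∈ N, ∀ b ∈ N, a * b = b * a) := by
  have hinf : (T : Subgroup Z) ⊓ N = ⊥ := pgroup_inf_coprime_eq_bot _ _ T.2 hNc
  have hNne : N ≠ ⊥ := by
    intro h0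
    rw [h0, Subgroup.index_bot] at hNi
    have h1 : IsPGroup p (⊤ : Subgroup Z) := by
      apply IsPGroup.of_card (n := k)
      rw [Subgroup.card_top]; exact hNi
    exact hT.1 (T.is_maximal' h1 le_top).symm
  have hsupgen : ∀ A : Subgroup Z, A ≤ N → A ≠ ⊥ → (T : Subgroup Z) ⊔ A = ⊤ := by
    intro A hAN hA
    apply hT.2
    refine lt_of_le_of_ne le_sup_left ?_
    intro h1
    apply hA
    have h2 : A ≤ (T : Subgroup Z) := by rw [h1]; exact le_sup_right
    exact le_bot_iff.mp (hinf ▸ le_inf h2 hAN)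
  have hsup : (T : Subgroup Z) ⊔ N = ⊤ := hsupgen N le_rfl hNne
  have hM : ∀ A : Subgroup Z, A ≤ N → (T : Subgroup Z) ≤ Subgroup.normalizer (A : Set Z) →
      A = ⊥ ∨ A = N := by
    intro A hAN hTA
    by_cases hA : A = ⊥
    · exact Or.inl hA
    · right
      apply le_antisymm hAN
      intro n hn
      have h1 : n ∈ A ⊔ (T : Subgroup Z) := by
        rw [sup_comm, hsupgen A hAN hA]; exact Subgroup.mem_top n
      obtain ⟨a, ha, t, ht, hnat⟩ := mem_sup_of_le_normalizer hTA h1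
      have h2 : t ∈ (T : Subgroup Z) ⊓ N := by
        refine Subgroup.mem_inf.mpr ⟨ht, ?_⟩
        have h3 : t = a⁻¹ * n := by rw [hnat]; group
        rw [h3]
        exact N.mul_mem (N.inv_mem (hAN ha)) hn
      rw [hinf, Subgroup.mem_bot] at h2
      rw [hnat, h2, mul_one]
      exact ha
  refine ⟨hinf, hsup, hM, ?_⟩
  -- `N` is a `q`-group
  have hcard1 : Nat.card ↥N ≠ 1 := fun h => hNne (Subgroup.card_eq_one.mp h)
  obtain ⟨q, hq, hqdvd⟩ := Nat.exists_prime_and_dvd hcard1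
  haveI : Fact q.Prime := ⟨hq⟩
  obtain ⟨Q₀⟩ : Nonempty (Sylow q ↥N) := inferInstance
  obtain ⟨Q, hQ⟩ : ∃ Q : Subgroup Z, Q = (Q₀ : Subgroup ↥N).map N.subtype := ⟨_, rfl⟩
  have hQq : IsPGroup q Q := hQ ▸ Q₀.2.map _
  have hQN : Q ≤ N := by rw [hQ]; exact Subgroup.map_subtype_le _
  have hQne : Q ≠ ⊥ := by
    intro h0
    have h1 : Nat.card ↥Q = q ^ (Nat.card ↥N).factorization q := by
      rw [hQ, Subgroup.card_subtype, Sylow.card_eq_multiplicity]
    rw [h0, Subgroup.card_bot] at h1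
    have h2 : (Nat.card ↥N).factorization q ≠ 0 := by
      intro h3
      have := (Nat.factorization_eq_zero_iff _ _).mp h3
      rcases this with h4 | h4 | h4
      · exact h4 hq
      · exact h4 hqdvd
      · exact Nat.card_pos.ne' h4
    have := Nat.one_lt_pow h2 hq.one_lt
    omega
  have hfrat : Subgroup.normalizer (Q : Set Z) ⊔ N = ⊤ := by
    rw [hQ]
    exact Sylow.normalizer_sup_eq_top Q₀
  have hidx : ¬ p ∣ (Subgroup.normalizer (Q : Set Z)).index := by
    have h1 := Cfsg.Agent.Helper10.relIndex_sup_dvd_card (Subgroup.normalizer (Q : Set Z)) N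
    rw [hfrat, Subgroup.relIndex_top_right] at h1
    intro h2
    have h3 : p ∣ Nat.gcd (Nat.card ↥N) p := Nat.dvd_gcd (h2.trans h1) dvd_rfl
    rw [hNc] at h3
    exact hp.out.one_lt.ne' (Nat.dvd_one.mp h3)
  obtain ⟨y, hy⟩ := exists_cj_le_of_index T _ hidx
  obtain ⟨A, hA⟩ : ∃ A : Subgroup Z, A = cj y⁻¹ Q := ⟨_, rfl⟩
  have hTA : (T : Subgroup Z) ≤ Subgroup.normalizer (A : Set Z) := by
    rw [hA, normalizer_cj, ← cj_le_iff]
    exact hy
  have hAN : A ≤ N := by
    rw [hA, ← cj_eq_of_normal y⁻¹ N]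
    exact cj_mono hQN
  have hAne : A ≠ ⊥ := hA ▸ cj_ne_bot hQne
  have hAeq : A = N := (hM A hAN hTA).resolve_left hAne
  have hNq : IsPGroup q N := by
    rw [← hAeq, hA]; exact isPGroup_cj hQq
  -- the centre
  obtain ⟨z, hzN, hzo, hzc⟩ :=
    exists_orderOf_eq_prime_central hNq le_rfl Subgroup.le_normalizer hNne
  have hz1 : z ≠ 1 := by
    rintro rfl
    rw [orderOf_one] at hzo
    exact hq.one_lt.ne hzo
  have hZn : (N ⊓ Subgroup.centralizer (N : Set Z)).Normal := inferInstance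
  have hzZ : z ∈ N ⊓ Subgroup.centralizer (N : Set Z) := by
    refine Subgroup.mem_inf.mpr ⟨hzN, ?_⟩
    rw [Subgroup.mem_centralizer_iff]
    exact fun y hy => hzc y hy
  have hZeq : N ⊓ Subgroup.centralizer (N : Set Z) = N := by
    refine (hM _ inf_le_left ?_).resolve_left ?_
    · rw [Subgroup.normalizer_eq_top_iff.mpr hZn]; exact le_top
    · intro h0
      rw [h0, Subgroup.mem_bot] at hzZ
      exact hz1 hzZ
  intro a ha b hb
  have h1 : b ∈ Subgroup.centralizer (N : Set Z) := by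
    have h2 : b ∈ N ⊓ Subgroup.centralizer (N : Set Z) := by rw [hZeq]; exact hb
    exact (Subgroup.mem_inf.mp h2).2
  exact Subgroup.mem_centralizer_iff.mp h1 a ha

/-- lift of `coatom_sylow_struct` to a group `Y` with a normal `p`-subgroup `H` such that `Y / H`
has a normal `p`-complement and a Sylow `p`-subgroup of `Y` is maximal. -/
theorem coatom_struct_lift {Y : Type*} [Group Y] [Finite Y] {p : ℕ} [hp : Fact p.Prime]
    (H : Subgroup Y) [hHn : H.Normal] (hHp : IsPGroup p H)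
    (hNPC : HasNormalPComplement p (Y ⧸ H)) (T : Sylow p Y) (hT : IsCoatom (T : Subgroup Y)) :
    ∃ K : Subgroup Y, K.Normal ∧ H ≤ K ∧
      (∀ a ∈ K, ∀ b ∈ K, a * b * a⁻¹ * b⁻¹ ∈ H) ∧
      (∃ m : ℕ, m.Coprime p ∧ ∀ a ∈ K, a ^ m ∈ H) ∧
      (K ⊓ (T : Subgroup Y) ≤ H) ∧
      (∀ y : Y, ∃ t ∈ (T : Subgroup Y), ∃ k ∈ K, y = t * k) ∧
      (∀ A : Subgroup Y, H ≤ A → A ≤ K →
        (T : Subgroup Y) ≤ Subgroup.normalizer (A : Set Y) → A = H ∨ A = K) ∧
      (∃ k : ℕ, K.index = p ^ k) := by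
  have hHT : H ≤ (T : Subgroup Y) := (le_pCore hHn hHp).trans (pCore_le_sylow T)
  obtain ⟨Tb, hTb⟩ : ∃ Tb : Sylow p (Y ⧸ H),
      (Tb : Subgroup (Y ⧸ H)) = (T : Subgroup Y).map (QuotientGroup.mk' H) :=
    ⟨T.mapSurjective (QuotientGroup.mk'_surjective H), Sylow.coe_mapSurjective _ _⟩
  have hker : (QuotientGroup.mk' H).ker = H := QuotientGroup.ker_mk' H
  have hcomapT : ((T : Subgroup Y).map (QuotientGroup.mk' H)).comap (QuotientGroup.mk' H)
      = (T : Subgroup Y) := Subgroup.comap_map_eq_self (by rw [hker]; exact hHT)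
  have hTbco : IsCoatom (Tb : Subgroup (Y ⧸ H)) := by
    constructor
    · intro h0
      apply hT.1
      rw [← hcomapT, ← hTb, h0, Subgroup.comap_top]
    · intro Mb hMb
      have h1 : (T : Subgroup Y) < Mb.comap (QuotientGroup.mk' H) := by
        refine lt_of_le_of_ne ?_ ?_
        · rw [← hcomapT, ← hTb]
          exact Subgroup.comap_mono hMb.le
        · intro h2
          apply hMb.ne
          rw [hTb, h2, Subgroup.map_comap_eq_self_of_surjective (QuotientGroup.mk'_surjective H)]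
      have h3 := hT.2 _ h1
      rw [← Subgroup.map_comap_eq_self_of_surjective (QuotientGroup.mk'_surjective H) Mb, h3,
        Subgroup.map_top_of_surjective _ (QuotientGroup.mk'_surjective H)]
  obtain ⟨Nb, hNbn, hNbc, k, hNbi⟩ := npc_data hNPC
  haveI := hNbn
  obtain ⟨hinf, hsup, hM, hab⟩ := coatom_sylow_struct Tb hTbco Nb hNbc k hNbi
  refine ⟨Nb.comap (QuotientGroup.mk' H), hNbn.comap _, ?_, ?_, ?_, ?_, ?_, ?_, ?_⟩
  · intro x hx
    rw [Subgroup.mem_comap]
    have h1 : (QuotientGroup.mk' H) x = 1 := (QuotientGroup.eq_one_iff x).mpr hx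
    rw [h1]; exact Nb.one_mem
  · intro a ha b hb
    rw [Subgroup.mem_comap] at ha hb
    rw [← QuotientGroup.eq_one_iff (N := H)]
    have h1 := hab _ ha _ hb
    show (QuotientGroup.mk' H) (a * b * a⁻¹ * b⁻¹) = 1
    rw [map_mul, map_mul, map_mul, map_inv, map_inv, h1]
    group
  · refine ⟨Nat.card ↥Nb, hNbc, ?_⟩
    intro a ha
    rw [Subgroup.mem_comap] at ha
    rw [← QuotientGroup.eq_one_iff (N := H)]
    show (QuotientGroup.mk' H) (a ^ Nat.card ↥Nb) = 1
    rw [map_pow]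
    have h1 := congrArg Subtype.val (pow_card_eq_one' (G := ↥Nb) (x := ⟨_, ha⟩))
    rw [Subgroup.coe_pow, Subgroup.coe_one] at h1
    exact h1
  · intro x hx
    obtain ⟨hxK, hxT⟩ := Subgroup.mem_inf.mp hx
    rw [Subgroup.mem_comap] at hxK
    have h1 : (QuotientGroup.mk' H) x ∈ (Tb : Subgroup (Y ⧸ H)) ⊓ Nb := by
      refine Subgroup.mem_inf.mpr ⟨?_, hxK⟩
      rw [hTb]; exact Subgroup.mem_map_of_mem _ hxT
    rw [hinf, Subgroup.mem_bot] at h1
    exact (QuotientGroup.eq_one_iff x).mp h1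
  · intro y
    have h1 : (QuotientGroup.mk' H) y ∈ ((Tb : Subgroup (Y ⧸ H)) ⊔ Nb : Subgroup (Y ⧸ H)) := by
      rw [hsup]; exact Subgroup.mem_top _
    rw [← SetLike.mem_coe, Subgroup.mul_normal, Set.mem_mul] at h1
    obtain ⟨tb, htb, n, hn, htn⟩ := h1
    rw [SetLike.mem_coe, hTb] at htb
    obtain ⟨t, ht, rfl⟩ := htb
    refine ⟨t, ht, t⁻¹ * y, ?_, by group⟩
    rw [Subgroup.mem_comap, map_mul, map_inv, ← htn]
    rw [inv_mul_cancel_left]
    exact hn
  · intro A hHA hAK hTA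
    have h1 : A.map (QuotientGroup.mk' H) ≤ Nb := by
      rw [Subgroup.map_le_iff_le_comap]; exact hAK
    have h2 : (Tb : Subgroup (Y ⧸ H)) ≤ Subgroup.normalizer ((A.map (QuotientGroup.mk' H) : Subgroup (Y ⧸ H)) : Set (Y ⧸ H)) := by
      rw [hTb]
      exact (Subgroup.map_mono hTA).trans (Subgroup.le_normalizer_map _)
    have hcomapA : (A.map (QuotientGroup.mk' H)).comap (QuotientGroup.mk' H) = A :=
      Subgroup.comap_map_eq_self (by rw [hker]; exact hHA)
    rcases hM _ h1 h2 with h3 | h3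
    · left
      apply le_antisymm _ hHA
      have h4 := (Subgroup.map_eq_bot_iff _).mp h3
      rwa [hker] at h4
    · right
      rw [← hcomapA, h3]
  · refine ⟨k, ?_⟩
    rw [Subgroup.index_comap_of_surjective _ (QuotientGroup.mk'_surjective H)]
    exact hNbi

end HH2

end Cfsg.Agent.Helper13
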