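import Mathlib
import Cfsg.Prelude
import Cfsg.Agent.Helper13.HH2
import Cfsg.Agent.Helper21.Frobenius

set_option autoImplicit false

namespace Cfsg.Agent.Helper13

open Cfsg Cfsg.Agent.Helper17
open scoped commutatorElement

universe u

section HH3

/-- data of a normal series `1 ≤ Z₁ ≤ Z₂ ≤ Z` with `Z₁` a `p`-group, `Z₂ / Z₁` abelian of exponent
`m` prime to `p`, and `Z / Z₂` a `p`-group. -/
def PAPData (p : ℕ) {Z : Type*} [Group Z] (Z₁ Z₂ : Subgroup Z) (m : ℕ) : Prop :=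
  Z₁.Normal ∧ Z₂.Normal ∧ IsPGroup p Z₁ ∧ (∀ a ∈ Z₂, ∀ b ∈ Z₂, a * b * a⁻¹ * b⁻¹ ∈ Z₁) ∧
    m.Coprime p ∧ (∀ a ∈ Z₂, a ^ m ∈ Z₁) ∧ ∀ z : Z, ∃ k : ℕ, z ^ (p ^ k) ∈ Z₂

theorem PAPData.map {p : ℕ} {Z Z' : Type*} [Group Z] [Group Z'] {Z₁ Z₂ : Subgroup Z} {m : ℕ}
    (h : PAPData p Z₁ Z₂ m) (f : Z →* Z') (hf : Function.Surjective f) :
    PAPData p (Z₁.map f) (Z₂.map f) m := by
  obtain ⟨h1, h2, h3, h4, h5, h6, h7⟩ := h
  refine ⟨h1.map f hf, h2.map f hf, h3.map f, ?_, h5, ?_, ?_⟩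
  · rintro _ ⟨a, ha, rfl⟩ _ ⟨b, hb, rfl⟩
    exact ⟨a * b * a⁻¹ * b⁻¹, h4 a ha b hb, by simp only [map_mul, map_inv]⟩
  · rintro _ ⟨a, ha, rfl⟩
    exact ⟨a ^ m, h6 a ha, by rw [map_pow]⟩
  · intro z'
    obtain ⟨z, rfl⟩ := hf z'
    obtain ⟨k, hk⟩ := h7 z
    exact ⟨k, z ^ (p ^ k), hk, by rw [map_pow]⟩

theorem PAPData.subgroupOf {p : ℕ} {Z : Type*} [Group Z] {Z₁ Z₂ : Subgroup Z} {m : ℕ}
    (h : PAPData p Z₁ Z₂ m) (L : Subgroup Z) :
    PAPData p (Z₁.subgroupOf L) (Z₂.subgroupOf L) m := by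
  obtain ⟨h1, h2, h3, h4, h5, h6, h7⟩ := h
  refine ⟨h1.subgroupOf L, h2.subgroupOf L, h3.comap_subtype, ?_, h5, ?_, ?_⟩
  · intro a ha b hb
    rw [Subgroup.mem_subgroupOf] at ha hb ⊢
    have := h4 _ ha _ hb
    simpa only [Subgroup.coe_mul, Subgroup.coe_inv] using this
  · intro a ha
    rw [Subgroup.mem_subgroupOf] at ha ⊢
    have := h6 _ ha
    simpa only [Subgroup.coe_pow] using this
  · intro z
    obtain ⟨k, hk⟩ := h7 (z : Z)
    refine ⟨k, ?_⟩
    rw [Subgroup.mem_subgroupOf]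
    simpa only [Subgroup.coe_pow] using hk

/-- groups with a normal series of type `p`-group, abelian `p'`-group, `p`-group. -/
def PAP (p : ℕ) (Z : Type*) [Group Z] : Prop :=
  ∃ (Z₁ Z₂ : Subgroup Z) (m : ℕ), PAPData p Z₁ Z₂ m

theorem PAP.section {p : ℕ} {Y : Type*} [Group Y] (h : PAP p Y) (K' R' : Subgroup Y)
    [(R'.subgroupOf K').Normal] : PAP p (↥K' ⧸ R'.subgroupOf K') := by
  obtain ⟨Z₁, Z₂, m, hd⟩ := h
  exact ⟨_, _, m, (hd.subgroupOf K').map (QuotientGroup.mk' _) (QuotientGroup.mk'_surjective _)⟩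

/-- `y` lies in a normal subgroup acting on `P` as a `p`-group. -/
def InOp (p : ℕ) {Z : Type*} [Group Z] (P : Subgroup Z) (y : Z) : Prop :=
  ∃ D : Subgroup Z, D.Normal ∧ y ∈ D ∧
    ∀ d ∈ D, ∃ k : ℕ, d ^ (p ^ k) ∈ Subgroup.centralizer (P : Set Z)

theorem inOp_mem_pCore {p : ℕ} {Z : Type*} [Group Z] {P : Subgroup Z} (C : Subgroup Z)
    [C.Normal] (hC : C = Subgroup.centralizer (P : Set Z)) {y : Z} (h : InOp p P y) :
    (QuotientGroup.mk y : Z ⧸ C) ∈ pCore p (Z ⧸ C) := by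
  obtain ⟨D, hDn, hy, hD⟩ := h
  have h1 : (D.map (QuotientGroup.mk' C)).Normal := hDn.map _ (QuotientGroup.mk'_surjective C)
  have h2 : IsPGroup p (D.map (QuotientGroup.mk' C)) := by
    rintro ⟨_, d, hd, rfl⟩
    obtain ⟨k, hk⟩ := hD d hd
    refine ⟨k, Subtype.ext ?_⟩
    rw [Subgroup.coe_pow, Subgroup.coe_one, ← map_pow]
    exact (QuotientGroup.eq_one_iff _).mpr (hC ▸ hk)
  exact le_pCore h1 h2 (Subgroup.mem_map_of_mem _ hy)

theorem pow_mem_of_mem_pCore {p : ℕ} {Z : Type*} [Group Z] (C : Subgroup Z) [C.Normal] {y : Z}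
    (h : (QuotientGroup.mk y : Z ⧸ C) ∈ pCore p (Z ⧸ C)) : ∃ k : ℕ, y ^ (p ^ k) ∈ C := by
  obtain ⟨k, hk⟩ := (pCore_isPGroup p (Z ⧸ C)) ⟨_, h⟩
  have h1 := congrArg Subtype.val hk
  rw [Subgroup.coe_pow, Subgroup.coe_one] at h1
  refine ⟨k, (QuotientGroup.eq_one_iff _).mp ?_⟩
  rw [QuotientGroup.mk_pow]
  exact h1

theorem conj_pow_of_commute {Z : Type*} [Group Z] (e x : Z)
    (hc : e * (e * x * e⁻¹ * x⁻¹) = (e * x * e⁻¹ * x⁻¹) * e) (n : ℕ) :
    e ^ n * x * (e ^ n)⁻¹ = (e * x * e⁻¹ * x⁻¹) ^ n * x := by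
  obtain ⟨c, hcdef⟩ : ∃ c : Z, c = e * x * e⁻¹ * x⁻¹ := ⟨_, rfl⟩
  rw [← hcdef] at hc ⊢
  induction n with
  | zero => simp
  | succ n ih =>
    have hcn : e * c ^ n = c ^ n * e := ((show Commute e c from hc).pow_right n).eq
    have h1 : e ^ (n + 1) * x * (e ^ (n + 1))⁻¹ = e * (e ^ n * x * (e ^ n)⁻¹) * e⁻¹ := by
      rw [pow_succ']; group
    have h2 : e * (c ^ n * x) * e⁻¹ = (e * c ^ n) * (x * e⁻¹) := by simp only [mul_assoc]
    have h3 : c ^ n * e * (x * e⁻¹) = c ^ n * (e * x * e⁻¹ * x⁻¹) * x := by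
      simp only [mul_assoc, inv_mul_cancel, mul_one]
    rw [h1, ih, h2, hcn, h3, ← hcdef, ← pow_succ]

theorem quad_pow_mem_centralizer {Z : Type*} [Group Z] [Finite Z] {p : ℕ} [Fact p.Prime]
    {P : Subgroup Z} (hPn : P.Normal) (hPp : IsPGroup p P) (g : Z)
    (hg : ∀ x ∈ P, g * (g * x * g⁻¹ * x⁻¹) = (g * x * g⁻¹ * x⁻¹) * g) :
    ∃ k : ℕ, g ^ (p ^ k) ∈ Subgroup.centralizer (P : Set Z) := by
  obtain ⟨k, hk⟩ := IsPGroup.iff_card.mp hPp
  refine ⟨k, ?_⟩
  rw [Subgroup.mem_centralizer_iff]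
  intro x hx
  have h1 := conj_pow_of_commute g x (hg x hx) (p ^ k)
  have hc : g * x * g⁻¹ * x⁻¹ ∈ P := P.mul_mem (hPn.conj_mem x hx g) (P.inv_mem hx)
  have h2 : (g * x * g⁻¹ * x⁻¹) ^ (p ^ k) = 1 := by
    have h3 := congrArg Subtype.val (pow_card_eq_one' (G := ↥P) (x := ⟨_, hc⟩))
    rw [Subgroup.coe_pow, Subgroup.coe_one, hk] at h3
    exact h3
  rw [h2, one_mul] at h1
  calc x * g ^ (p ^ k) = (g ^ (p ^ k) * x * (g ^ (p ^ k))⁻¹) * g ^ (p ^ k) := by rw [h1]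
    _ = g ^ (p ^ k) * x := by group

theorem exists_minNormal_le {Z : Type*} [Group Z] [Finite Z] {P : Subgroup Z} (hPn : P.Normal)
    (hP : P ≠ ⊥) : ∃ M : Subgroup Z, IsMinNormal M ∧ M ≤ P := by
  obtain ⟨M, hM, hmin⟩ := Set.exists_min_image {L : Subgroup Z | L.Normal ∧ L ≠ ⊥ ∧ L ≤ P}
    (fun L => Nat.card ↥L) (Set.toFinite _) ⟨P, hPn, hP, le_rfl⟩
  refine ⟨M, ⟨hM.1, hM.2.1, ?_⟩, hM.2.2⟩
  intro L hL hLM
  by_cases h0 : L = ⊥
  · exact Or.inl h0
  · right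
    have h1 := hmin L ⟨hL, h0, hLM.trans hM.2.2⟩
    exact Subgroup.eq_of_le_of_card_ge hLM h1

/-- the main induction: commutators of a quadratic element with `Z₂` act as `p`-elements. -/
theorem quad_ind {p : ℕ} [hp : Fact p.Prime] (hp2 : p ≠ 2) :
    ∀ (n : ℕ) (Z : Type u) [Group Z] [Finite Z] (Z₁ Z₂ : Subgroup Z) (m : ℕ),
      PAPData p Z₁ Z₂ m → ∀ P : Subgroup Z, P.Normal → IsPGroup p P → Nat.card ↥P ≤ n →
      ∀ g : Z, (∀ x ∈ P, g * (g * x * g⁻¹ * x⁻¹) = (g * x * g⁻¹ * x⁻¹) * g) →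
      ∀ r ∈ Z₂, InOp p P (g * r * g⁻¹ * r⁻¹) := by
  intro n
  induction n with
  | zero =>
    intro Z _ _ Z₁ Z₂ m hd P hPn hPp hcard
    exact absurd hcard (by have := Nat.card_pos (α := ↥P); omega)
  | succ n ih =>
    intro Z _ _ Z₁ Z₂ m hd P hPn hPp hcard g hg r hr
    by_cases hP : P = ⊥
    · refine ⟨⊤, Subgroup.normal_top, Subgroup.mem_top _, fun d _ => ⟨0, ?_⟩⟩
      rw [hP, Subgroup.mem_centralizer_iff]
      intro h hh
      rw [SetLike.mem_coe, Subgroup.mem_bot] at hh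
      rw [hh, one_mul, mul_one]
    obtain ⟨M, hM, hMP⟩ := exists_minNormal_le hPn hP
    haveI hMn : M.Normal := hM.1
    have hMp : IsPGroup p M := hPp.to_le hMP
    have hd' := hd
    obtain ⟨h1, h2, h3, h4, h5, h6, h7⟩ := hd
    have hp3 : 3 ≤ p := by have := hp.out.two_le; omega
    -- (i) the action on `M`
    have hZ₁M : Z₁ ≤ Subgroup.centralizer (M : Set Z) := by
      have hcen := hM.le_centralizer (pCore_isPGroup p Z) (le_pCore hMn hMp) inferInstance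
      intro z hz
      rw [Subgroup.mem_centralizer_iff]
      intro v hv
      exact (Subgroup.mem_centralizer_iff.mp (hcen hv) z (le_pCore h1 h3 hz)).symm
    have hi := hh_act hM hMp g (by
        intro v hv
        have hf1 : (fun w : Z => g * w * g⁻¹ * w⁻¹) 1 = 1 := by simp
        have hf2 : (fun w : Z => g * w * g⁻¹ * w⁻¹)^[2] v = 1 := by
          rw [Function.iterate_succ_apply, Function.iterate_one]
          have h8 := hg v (hMP hv)
          show g * (g * v * g⁻¹ * v⁻¹) * g⁻¹ * (g * v * g⁻¹ * v⁻¹)⁻¹ = 1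
          rw [h8]; group
        have h9 : p - 1 = (p - 3) + 2 := by omega
        rw [h9, Function.iterate_add_apply, hf2]
        exact Function.iterate_fixed hf1 _) Z₂ (fun a ha b hb => hZ₁M (h4 a ha b hb))
      (fun a ha => by have h8 := h2.conj_mem a ha g⁻¹; rwa [inv_inv] at h8) m h5
      (fun a ha => hZ₁M (h6 a ha)) r hr
    -- (ii) induction in `Z ⧸ M`
    have hcardM : Nat.card ↥(P.map (QuotientGroup.mk' M)) ≤ n := by
      have hlt : Nat.card ↥(P.map (QuotientGroup.mk' M)) < Nat.card ↥P := by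
        haveI : Fintype ↥P := Fintype.ofFinite _
        haveI : Fintype ↥(P.map (QuotientGroup.mk' M)) := Fintype.ofFinite _
        rw [Nat.card_eq_fintype_card, Nat.card_eq_fintype_card]
        apply Fintype.card_lt_of_surjective_not_injective
          (fun x : ↥P => (⟨(QuotientGroup.mk' M) x, Subgroup.mem_map_of_mem _ x.2⟩ :
            ↥(P.map (QuotientGroup.mk' M))))
        · rintro ⟨_, x, hx, rfl⟩
          exact ⟨⟨x, hx⟩, rfl⟩
        · intro hinj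
          apply hM.2.1
          rw [eq_bot_iff]
          intro v hv
          have h8 : (⟨v, hMP hv⟩ : ↥P) = 1 := by
            apply hinj
            apply Subtype.ext
            show (QuotientGroup.mk' M) v = (QuotientGroup.mk' M) 1
            rw [map_one]
            exact (QuotientGroup.eq_one_iff v).mpr hv
          exact congrArg Subtype.val h8
      omega
    have hii := ih (Z ⧸ M) (Z₁.map (QuotientGroup.mk' M)) (Z₂.map (QuotientGroup.mk' M)) m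
      (hd'.map _ (QuotientGroup.mk'_surjective M)) (P.map (QuotientGroup.mk' M))
      (hPn.map _ (QuotientGroup.mk'_surjective M)) (hPp.map _) hcardM ((QuotientGroup.mk' M) g)
      (by
        rintro _ ⟨x, hx, rfl⟩
        have h8 := congrArg (QuotientGroup.mk' M) (hg x hx)
        simpa only [map_mul, map_inv] using h8)
      ((QuotientGroup.mk' M) r) (Subgroup.mem_map_of_mem _ hr)
    obtain ⟨D', hD'n, hyD', hD'⟩ := hii
    -- (iii) combine
    obtain ⟨j, hj⟩ := IsPGroup.iff_card.mp hMp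
    refine ⟨D'.comap (QuotientGroup.mk' M) ⊓ Subgroup.centralizer (M : Set Z), ?_, ?_, ?_⟩
    · haveI := hD'n.comap (QuotientGroup.mk' M)
      exact Subgroup.normal_inf_normal _ _
    · refine Subgroup.mem_inf.mpr ⟨?_, hi⟩
      rw [Subgroup.mem_comap]
      simpa only [map_mul, map_inv] using hyD'
    · intro d hd
      obtain ⟨hd1, hd2⟩ := Subgroup.mem_inf.mp hd
      rw [Subgroup.mem_comap] at hd1
      obtain ⟨k, hk⟩ := hD' _ hd1
      refine ⟨k + j, ?_⟩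
      rw [pow_add, pow_mul, Subgroup.mem_centralizer_iff]
      intro x hx
      obtain ⟨e, he⟩ : ∃ e : Z, e = d ^ (p ^ k) := ⟨_, rfl⟩
      rw [← he]
      have heM : e ∈ Subgroup.centralizer (M : Set Z) := he ▸ Subgroup.pow_mem _ hd2 _
      have hcM : e * x * e⁻¹ * x⁻¹ ∈ M := by
        rw [← QuotientGroup.eq_one_iff (N := M)]
        have h8 := Subgroup.mem_centralizer_iff.mp hk _ (Subgroup.mem_map_of_mem _ hx)
        rw [← map_pow, ← he] at h8
        show (QuotientGroup.mk' M) (e * x * e⁻¹ * x⁻¹) = 1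
        rw [map_mul, map_mul, map_mul, map_inv, map_inv, ← h8]
        group
      have hcomm : e * (e * x * e⁻¹ * x⁻¹) = (e * x * e⁻¹ * x⁻¹) * e :=
        (Subgroup.mem_centralizer_iff.mp heM _ hcM).symm
      have h9 := conj_pow_of_commute e x hcomm (p ^ j)
      have h10 : (e * x * e⁻¹ * x⁻¹) ^ (p ^ j) = 1 := by
        have h11 := congrArg Subtype.val (pow_card_eq_one' (G := ↥M) (x := ⟨_, hcM⟩))
        rw [Subgroup.coe_pow, Subgroup.coe_one, hj] at h11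
        exact h11
      rw [h10, one_mul] at h9
      calc x * e ^ (p ^ j) = (e ^ (p ^ j) * x * (e ^ (p ^ j))⁻¹) * e ^ (p ^ j) := by rw [h9]
        _ = e ^ (p ^ j) * x := by group

/-- in a group with trivial `O_p` and a normal subgroup `A` of `p`-power index, a `p`-element
centralizing `A` is trivial. -/
theorem pelem_central_trivial {X : Type*} [Group X] [Finite X] {p : ℕ} [hp : Fact p.Prime]
    (A : Subgroup X) [hAn : A.Normal] (hXA : ∀ z : X, ∃ k : ℕ, z ^ (p ^ k) ∈ A)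
    (hO : ∀ Q : Subgroup X, Q.Normal → IsPGroup p Q → Q = ⊥) (x : X)
    (hx : ∃ a : ℕ, x ^ (p ^ a) = 1) (hxA : ∀ a ∈ A, x * a = a * x) : x = 1 := by
  obtain ⟨a, ha⟩ := hx
  have hxp : IsPGroup p (Subgroup.zpowers x) := by
    obtain ⟨b, -, hb⟩ := (Nat.dvd_prime_pow hp.out).mp (orderOf_dvd_of_pow_eq_one ha)
    apply IsPGroup.of_card (n := b)
    rw [Nat.card_zpowers, hb]
  obtain ⟨T₀, hT₀⟩ := hxp.exists_le_sylow
  have hxT : x ∈ (T₀ : Subgroup X) := hT₀ (Subgroup.mem_zpowers x)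
  have hQp : IsPGroup p (X ⧸ A) := by
    intro q
    obtain ⟨z, rfl⟩ := QuotientGroup.mk_surjective q
    obtain ⟨k, hk⟩ := hXA z
    exact ⟨k, by rw [← QuotientGroup.mk_pow]; exact (QuotientGroup.eq_one_iff _).mpr hk⟩
  obtain ⟨j, hj⟩ := IsPGroup.iff_card.mp hQp
  have hsup : (T₀ : Subgroup X) ⊔ A = ⊤ := by
    rw [← Subgroup.index_eq_one]
    have h1 : ((T₀ : Subgroup X) ⊔ A).index ∣ A.index := Subgroup.index_dvd_of_le le_sup_right
    have h2 : ((T₀ : Subgroup X) ⊔ A).index ∣ (T₀ : Subgroup X).index :=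
      Subgroup.index_dvd_of_le le_sup_left
    have hAi : A.index = p ^ j := by rw [Subgroup.index_eq_card]; exact hj
    rw [hAi] at h1
    obtain ⟨i, -, hi⟩ := (Nat.dvd_prime_pow hp.out).mp h1
    rcases Nat.eq_zero_or_pos i with h0 | h0
    · rw [hi, h0, pow_zero]
    · exfalso
      apply T₀.not_dvd_index
      refine dvd_trans ?_ h2
      rw [hi]
      exact dvd_pow_self p h0.ne'
  have hSn : ((T₀ : Subgroup X) ⊓ Subgroup.centralizer (A : Set X)).Normal := by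
    constructor
    intro s hs y
    obtain ⟨hsT, hsE⟩ := Subgroup.mem_inf.mp hs
    have hy : y ∈ ((T₀ : Subgroup X) ⊔ A : Subgroup X) := by rw [hsup]; exact Subgroup.mem_top y
    rw [← SetLike.mem_coe, Subgroup.mul_normal, Set.mem_mul] at hy
    obtain ⟨t, ht, b, hb, rfl⟩ := hy
    have h1 : b * s * b⁻¹ = s := by
      have h2 := Subgroup.mem_centralizer_iff.mp hsE b hb
      rw [h2]; group
    have h3 : t * b * s * (t * b)⁻¹ = t * (b * s * b⁻¹) * t⁻¹ := by group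
    rw [h3, h1]
    refine Subgroup.mem_inf.mpr ⟨?_, ?_⟩
    · exact Subgroup.mul_mem _ (Subgroup.mul_mem _ ht hsT) (Subgroup.inv_mem _ ht)
    · exact (inferInstance : (Subgroup.centralizer (A : Set X)).Normal).conj_mem s hsE t
  have hS := hO _ hSn (T₀.2.to_le inf_le_left)
  have hxS : x ∈ (T₀ : Subgroup X) ⊓ Subgroup.centralizer (A : Set X) := by
    refine Subgroup.mem_inf.mpr ⟨hxT, ?_⟩
    rw [Subgroup.mem_centralizer_iff]
    exact fun b hb => (hxA b hb).symm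
  rw [hS, Subgroup.mem_bot] at hxS
  exact hxS

/-- a quadratic element on a normal `p`-subgroup lies in `O_p` modulo the centralizer, in a group
with a `p`, abelian-`p'`, `p` series (`p` odd). -/
theorem quad_mem_pCore {p : ℕ} [hp : Fact p.Prime] (hp2 : p ≠ 2) {Z : Type u} [Group Z]
    [Finite Z] {Z₁ Z₂ : Subgroup Z} {m : ℕ} (hd : PAPData p Z₁ Z₂ m) (P : Subgroup Z)
    (hPn : P.Normal) (hPp : IsPGroup p P) (C : Subgroup Z) [hCn : C.Normal]
    (hC : C = Subgroup.centralizer (P : Set Z)) (g : Z)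
    (hg : ∀ x ∈ P, g * (g * x * g⁻¹ * x⁻¹) = (g * x * g⁻¹ * x⁻¹) * g) :
    (QuotientGroup.mk g : Z ⧸ C) ∈ pCore p (Z ⧸ C) := by
  obtain ⟨D, hD⟩ : ∃ D : Subgroup Z, D = (pCore p (Z ⧸ C)).comap (QuotientGroup.mk' C) :=
    ⟨_, rfl⟩
  have hDmem : ∀ y : Z, y ∈ D ↔ (QuotientGroup.mk y : Z ⧸ C) ∈ pCore p (Z ⧸ C) := by
    intro y; rw [hD, Subgroup.mem_comap]; rfl
  haveI hDn : D.Normal := by
    rw [hD]; exact Subgroup.Normal.comap inferInstance _
  have hInD : ∀ y : Z, InOp p P y → y ∈ D := fun y hy => (hDmem y).mpr (inOp_mem_pCore C hC hy)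
  have hDpow : ∀ d ∈ D, ∃ k : ℕ, d ^ (p ^ k) ∈ C :=
    fun d hd => pow_mem_of_mem_pCore C ((hDmem d).mp hd)
  have hCD : C ≤ D := by
    intro c hc
    rw [hDmem, (QuotientGroup.eq_one_iff c).mpr hc]
    exact Subgroup.one_mem _
  have hd' := hd
  obtain ⟨h1, h2, h3, h4, h5, h6, h7⟩ := hd
  have hZ₁D : Z₁ ≤ D := by
    intro z hz
    apply hInD
    refine ⟨Z₁, h1, hz, ?_⟩
    intro d hd
    obtain ⟨k, hk⟩ := h3 ⟨d, hd⟩
    refine ⟨k, ?_⟩
    have h8 := congrArg Subtype.val hk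
    rw [Subgroup.coe_pow, Subgroup.coe_one] at h8
    rw [h8]; exact Subgroup.one_mem _
  rw [← hDmem, ← QuotientGroup.eq_one_iff (N := D)]
  haveI : (Z₂.map (QuotientGroup.mk' D)).Normal := h2.map _ (QuotientGroup.mk'_surjective D)
  apply pelem_central_trivial (p := p) (Z₂.map (QuotientGroup.mk' D))
  · intro zb
    obtain ⟨z, rfl⟩ := QuotientGroup.mk_surjective zb
    obtain ⟨k, hk⟩ := h7 z
    exact ⟨k, z ^ (p ^ k), hk, by rw [map_pow]; rfl⟩
  · intro Q hQn hQp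
    rw [eq_bot_iff]
    intro qb hqb
    obtain ⟨q, rfl⟩ := QuotientGroup.mk_surjective qb
    rw [Subgroup.mem_bot, QuotientGroup.eq_one_iff]
    apply hInD
    refine ⟨Q.comap (QuotientGroup.mk' D), hQn.comap _, hqb, ?_⟩
    intro d hd
    rw [Subgroup.mem_comap] at hd
    obtain ⟨a, ha⟩ := hQp ⟨_, hd⟩
    have h8 := congrArg Subtype.val ha
    rw [Subgroup.coe_pow, Subgroup.coe_one, ← map_pow] at h8
    have h9 : d ^ (p ^ a) ∈ D := (QuotientGroup.eq_one_iff _).mp h8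
    obtain ⟨b, hb⟩ := hDpow _ h9
    refine ⟨a + b, ?_⟩
    rw [pow_add, pow_mul, ← hC]
    exact hb
  · obtain ⟨k, hk⟩ := quad_pow_mem_centralizer hPn hPp g hg
    refine ⟨k, ?_⟩
    rw [← QuotientGroup.mk_pow]
    exact (QuotientGroup.eq_one_iff _).mpr (hCD (hC ▸ hk))
  · rintro _ ⟨r, hr, rfl⟩
    have h8 := hInD _ (quad_ind hp2 (Nat.card ↥P) Z Z₁ Z₂ m hd' P hPn hPp le_rfl g hg r hr)
    have h9 : (QuotientGroup.mk' D) (g * r * g⁻¹ * r⁻¹) = 1 := (QuotientGroup.eq_one_iff _).mpr h8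
    rw [map_mul, map_mul, map_mul, map_inv, map_inv] at h9
    calc (QuotientGroup.mk g : Z ⧸ D) * (QuotientGroup.mk' D) r
        = ((QuotientGroup.mk' D) g * (QuotientGroup.mk' D) r * ((QuotientGroup.mk' D) g)⁻¹ *
            ((QuotientGroup.mk' D) r)⁻¹) * ((QuotientGroup.mk' D) r * (QuotientGroup.mk' D) g) := by
          show (QuotientGroup.mk' D) g * (QuotientGroup.mk' D) r = _
          group
      _ = (QuotientGroup.mk' D) r * QuotientGroup.mk g := by rw [h9, one_mul]; rfl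

/-- groups with a `p`, abelian-`p'`, `p` series are `p`-stable in the normalizer form (`p` odd). -/
theorem pap_normalizerPStable {p : ℕ} [hp : Fact p.Prime] (hp2 : p ≠ 2) {Z : Type u} [Group Z]
    [Finite Z] (h : PAP p Z) : IsNormalizerPStable p Z := by
  obtain ⟨Z₁, Z₂, m, hd⟩ := h
  intro P hPp g hg hquad
  have hPL : P ≤ Subgroup.normalizer (P : Set Z) := Subgroup.le_normalizer
  have hP'n : (P.subgroupOf (Subgroup.normalizer (P : Set Z))).Normal :=
    Subgroup.normal_in_normalizer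
  refine quad_mem_pCore hp2 (hd.subgroupOf _) (P.subgroupOf (Subgroup.normalizer (P : Set Z)))
    hP'n hPp.comap_subtype _ ?_ ⟨g, hg⟩ ?_
  · ext c
    rw [Subgroup.mem_subgroupOf, Subgroup.mem_centralizer_iff, Subgroup.mem_centralizer_iff]
    constructor
    · intro h x hx
      exact Subtype.ext (h x (Subgroup.mem_subgroupOf.mp hx))
    · intro h x hx
      exact congrArg Subtype.val (h ⟨x, hPL hx⟩ (Subgroup.mem_subgroupOf.mpr hx))
  · intro x hx
    apply Subtype.ext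
    simp only [Subgroup.coe_mul, Subgroup.coe_inv]
    have hxP : (x : Z) ∈ P := Subgroup.mem_subgroupOf.mp hx
    have h1 : ⁅(x : Z), g⁆ ∈ ⁅P, Subgroup.zpowers g⁆ :=
      Subgroup.commutator_mem_commutator hxP (Subgroup.mem_zpowers g)
    have h2 : ⁅⁅(x : Z), g⁆, g⁆ ∈ ⁅⁅P, Subgroup.zpowers g⁆, Subgroup.zpowers g⁆ :=
      Subgroup.commutator_mem_commutator h1 (Subgroup.mem_zpowers g)
    rw [hquad, Subgroup.mem_bot, commutatorElement_eq_one_iff_commute] at h2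
    have h3 : Commute g (⁅(x : Z), g⁆)⁻¹ := h2.symm.inv_right
    rw [commutatorElement_inv, commutatorElement_def] at h3
    exact h3.eq

/-- if `U` controls strong fusion and `N(U)` is a `p`-group, the Frobenius hypothesis holds. -/
theorem frobHyp_of_controls {Y : Type*} [Group Y] [Finite Y] {p : ℕ} [hp : Fact p.Prime]
    {U : Subgroup Y} (hctl : ControlsStrongFusion p U)
    (hN : IsPGroup p ↥(Subgroup.normalizer (U : Set Y))) : Cfsg.Agent.Helper21.FrobHyp p Y := by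
  obtain ⟨T', -, hT'⟩ := hctl
  have key : ∀ Q : Subgroup Y, Q ≤ (T' : Subgroup Y) → ∀ g ∈ Subgroup.normalizer (Q : Set Y),
      (orderOf g).Coprime p → g ∈ Subgroup.centralizer (Q : Set Y) := by
    intro Q hQ g hg hgo
    have hconj : ∀ a ∈ Q, g * a * g⁻¹ ∈ Q := fun a ha => (Subgroup.mem_normalizer_iff.mp hg a).mp ha
    obtain ⟨-, hctlQ⟩ := hT' (Q : Set Y) hQ
    obtain ⟨x, hxN, hx⟩ := hctlQ g (by
      rintro _ ⟨a, ha, rfl⟩
      exact hQ (hconj a ha))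
    obtain ⟨k, hk⟩ := hN ⟨x, hxN⟩
    have hk' : x ^ (p ^ k) = 1 := by
      have h1 := congrArg Subtype.val hk
      rwa [Subgroup.coe_pow, Subgroup.coe_one] at h1
    have hpow : ∀ (n : ℕ) (a : Y), a ∈ Q → g ^ n * a * (g ^ n)⁻¹ = x ^ n * a * (x ^ n)⁻¹ := by
      intro n
      induction n with
      | zero => intro a _; simp
      | succ n ih =>
        intro a ha
        have h1 : g ^ (n + 1) * a * (g ^ (n + 1))⁻¹ = g ^ n * (g * a * g⁻¹) * (g ^ n)⁻¹ := by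
          rw [pow_succ]; group
        have h2 : x ^ (n + 1) * a * (x ^ (n + 1))⁻¹ = x ^ n * (x * a * x⁻¹) * (x ^ n)⁻¹ := by
          rw [pow_succ]; group
        rw [h1, h2, ih _ (hconj a ha), hx a ha]
    have hgk : g ^ (p ^ k) ∈ Subgroup.centralizer (Q : Set Y) := by
      rw [Subgroup.mem_centralizer_iff]
      intro a ha
      have h1 := hpow (p ^ k) a ha
      rw [hk', one_mul, inv_one, mul_one] at h1
      calc a * g ^ (p ^ k) = (g ^ (p ^ k) * a * (g ^ (p ^ k))⁻¹) * g ^ (p ^ k) := by rw [h1]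
        _ = g ^ (p ^ k) * a := by group
    obtain ⟨j, hj⟩ := exists_pow_eq_self_of_coprime
      (show (p ^ k).Coprime (orderOf g) from Nat.Coprime.pow_left k hgo.symm)
    rw [← hj]
    exact Subgroup.pow_mem _ hgk j
  intro Q hQ g hg hgo
  obtain ⟨y, hy⟩ := exists_le_cj_sylow hQ T'
  have h1 : cj y⁻¹ Q ≤ (T' : Subgroup Y) := le_cj_iff.mp hy
  have h2 : y⁻¹ * g * y ∈ Subgroup.normalizer ((cj y⁻¹ Q : Subgroup Y) : Set Y) := by
    rw [normalizer_cj, mem_cj]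
    have h3 : y⁻¹⁻¹ * (y⁻¹ * g * y) * y⁻¹ = g := by group
    rw [h3]; exact hg
  have h4 : (orderOf (y⁻¹ * g * y)).Coprime p := by
    have h5 : y⁻¹ * g * y = y⁻¹ * g * y⁻¹⁻¹ := by group
    rw [h5, orderOf_conj_eq]; exact hgo
  have h6 := key _ h1 _ h2 h4
  rw [centralizer_cj, mem_cj] at h6
  have h7 : y⁻¹⁻¹ * (y⁻¹ * g * y) * y⁻¹ = g := by group
  rwa [h7] at h6

end HH3

end Cfsg.Agent.Helper13
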