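import Mathlib
import Cfsg.Prelude.Def_ConjugacyFunctors
import Cfsg.Prelude.Def_LocalEven
import Cfsg.Agent.Helper1.QdChar
import Cfsg.Agent.Helper13.Sect

/-!
Helper library (seat helper13): in a group isomorphic to `Qd(p)` no isomorphism-invariant
`p`-group functor controls strong fusion.
-/

set_option autoImplicit false

namespace Cfsg.Agent.Helper13

open Cfsg Cfsg.Agent.Helper1 Cfsg.Agent.Helper1.Qd

universe u

section QdCtl

variable {p : ℕ} [Fact p.Prime]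

/-- in `Qd(p)`, no nontrivial characteristic subgroup of a Sylow `p`-subgroup controls strong
fusion -/
theorem not_ctl_qd (S : Sylow p ↥(Cfsg.qd p)) (T : Subgroup ↥(S : Subgroup ↥(Cfsg.qd p)))
    (hT : T ≠ ⊥) (hTc : T.Characteristic) :
    ¬ ControlsStrongFusion p (T.map (S : Subgroup ↥(Cfsg.qd p)).subtype) := by
  rintro ⟨T', -, hctl⟩
  obtain ⟨hN, hNtop⟩ := char_normalizer S T hT hTc
  apply hNtop
  rw [eq_top_iff]
  intro g _
  obtain ⟨e, he1, he2⟩ := coord S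
  haveI : Finite ↥(Cfsg.qd p) := inferInstance
  have hVp : IsPGroup p (V p) := by
    have h1 : IsPGroup p ((heisSylow p : Sylow p ↥(Cfsg.qd p)) : Subgroup ↥(Cfsg.qd p)) :=
      (heisSylow p).isPGroup'
    exact h1.to_le V_le_range
  have hVT' : V p ≤ (T' : Subgroup ↥(Cfsg.qd p)) := hVp.le_sylow_of_normal T'
  obtain ⟨-, h2⟩ := hctl ((V p : Subgroup ↥(Cfsg.qd p)) : Set ↥(Cfsg.qd p)) (fun a ha => hVT' ha)
  obtain ⟨x, hx, hag⟩ := h2 g (by
    rintro _ ⟨a, ha, rfl⟩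
    exact hVT' ((V_normal (p := p)).conj_mem a ha g))
  rw [hN] at hx
  have hz : ((e HeisP.z : ↥(S : Subgroup ↥(Cfsg.qd p))) : ↥(Cfsg.qd p)) ∈ V p :=
    (he1 _).mpr rfl
  have h3 := hag _ hz
  have h4 : x⁻¹ * g ∈ (S : Subgroup ↥(Cfsg.qd p)) := by
    apply he2
    calc x⁻¹ * g * ((e HeisP.z : ↥(S : Subgroup ↥(Cfsg.qd p))) : ↥(Cfsg.qd p))
        = x⁻¹ * (g * ((e HeisP.z : ↥(S : Subgroup ↥(Cfsg.qd p))) : ↥(Cfsg.qd p)) * g⁻¹) * g := by
          group
      _ = x⁻¹ * (x * ((e HeisP.z : ↥(S : Subgroup ↥(Cfsg.qd p))) : ↥(Cfsg.qd p)) * x⁻¹) * g := by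
          rw [h3]
      _ = ((e HeisP.z : ↥(S : Subgroup ↥(Cfsg.qd p))) : ↥(Cfsg.qd p)) * (x⁻¹ * g) := by group
  have h5 := Subgroup.mul_mem _ hx (Subgroup.le_normalizer h4)
  rwa [mul_inv_cancel_left] at h5

/-- control of strong fusion is transported by isomorphisms -/
theorem ctl_map_equiv {X : Type*} {Y : Type*} [Group X] [Group Y] [Finite X] (e : X ≃* Y)
    (U : Subgroup X) (h : ControlsStrongFusion p U) :
    ControlsStrongFusion p (U.map e.toMonoidHom) := by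
  obtain ⟨T, hUT, hctl⟩ := h
  have hcoe : ((T.mapSurjective (f := e.toMonoidHom) e.surjective : Sylow p Y) : Subgroup Y) =
      (T : Subgroup X).map e.toMonoidHom := Sylow.coe_mapSurjective _ _
  refine ⟨T.mapSurjective (f := e.toMonoidHom) e.surjective, ?_, ?_⟩
  · rw [hcoe]; exact Subgroup.map_mono hUT
  · intro A hA
    rw [hcoe] at hA ⊢
    refine ⟨hA, fun g hg => ?_⟩
    obtain ⟨-, h2⟩ := hctl (e.symm '' A) (by
      rintro _ ⟨a, ha, rfl⟩
      obtain ⟨t, ht, hte⟩ := hA ha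
      have h1 : e.symm a = t := by
        rw [← hte]; exact e.symm_apply_apply t
      rw [h1]; exact ht)
    obtain ⟨x, hx, hag⟩ := h2 (e.symm g) (by
      rintro _ ⟨_, ⟨a, ha, rfl⟩, rfl⟩
      obtain ⟨t, ht, hte⟩ := hg ⟨a, ha, rfl⟩
      have h1 : e.symm g * e.symm a * (e.symm g)⁻¹ = t := by
        rw [← map_inv, ← map_mul, ← map_mul]
        have h0 : g * a * g⁻¹ = e t := hte.symm
        rw [h0]; exact e.symm_apply_apply t
      show e.symm g * e.symm a * (e.symm g)⁻¹ ∈ (T : Subgroup X)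
      rw [h1]; exact ht)
    refine ⟨e x, Subgroup.le_normalizer_map e.toMonoidHom ⟨x, hx, rfl⟩, fun a ha => ?_⟩
    have h5 := congrArg e (hag (e.symm a) ⟨a, ha, rfl⟩)
    simpa using h5

/-- in a group isomorphic to `Qd(p)`, the subgroup that an isomorphism-invariant `p`-group functor
assigns to a Sylow `p`-subgroup does not control strong fusion -/
theorem not_ctl_of_equiv_qd (W : ∀ (Q : Type u) [Group Q], Subgroup Q)
    (hW : IsCharPFunctor.{u} p W) {Y : Type u} [Group Y] [Finite Y] (e : Y ≃* ↥(Cfsg.qd p))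
    (T : Sylow p Y) : ¬ ControlsStrongFusion p (inducedFunctor W (T : Subgroup Y)) := by
  intro h
  have h1 := ctl_map_equiv e _ h
  obtain ⟨S', hS'⟩ : ∃ S' : Sylow p ↥(Cfsg.qd p),
      (S' : Subgroup ↥(Cfsg.qd p)) = (T : Subgroup Y).map e.toMonoidHom :=
    ⟨T.mapSurjective (f := e.toMonoidHom) e.surjective, Sylow.coe_mapSurjective _ _⟩
  obtain ⟨φ, hφ⟩ : ∃ φ : ↥(T : Subgroup Y) ≃* ↥(S' : Subgroup ↥(Cfsg.qd p)),
      ∀ t : ↥(T : Subgroup Y), ((φ t : ↥(S' : Subgroup ↥(Cfsg.qd p))) : ↥(Cfsg.qd p)) = e (t : Y) :=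
    ⟨(e.subgroupMap (T : Subgroup Y)).trans (MulEquiv.subgroupCongr hS'.symm), fun t => rfl⟩
  have key : (inducedFunctor W (T : Subgroup Y)).map e.toMonoidHom =
      ((W ↥(T : Subgroup Y)).map φ.toMonoidHom).map (S' : Subgroup ↥(Cfsg.qd p)).subtype := by
    ext y
    constructor
    · rintro ⟨_, ⟨t, ht, rfl⟩, rfl⟩
      exact ⟨φ t, ⟨t, ht, rfl⟩, hφ t⟩
    · rintro ⟨_, ⟨t, ht, rfl⟩, rfl⟩
      exact ⟨_, ⟨t, ht, rfl⟩, (hφ t).symm⟩
  rw [key] at h1
  refine not_ctl_qd S' _ ?_ ?_ h1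
  · intro h0
    have h2 : W ↥(T : Subgroup Y) = ⊥ := by
      rw [eq_bot_iff]
      intro t ht
      have h3 : φ t ∈ (W ↥(T : Subgroup Y)).map φ.toMonoidHom := ⟨t, ht, rfl⟩
      rw [h0, Subgroup.mem_bot] at h3
      rw [Subgroup.mem_bot]
      exact φ.injective (h3.trans (map_one φ).symm)
    have hdvd : p ∣ Nat.card Y := by
      rw [Nat.card_congr e.toEquiv, card_qd]
      exact Dvd.dvd.mul_right (dvd_pow_self p (by norm_num)) _
    have hne : (T : Subgroup Y) ≠ ⊥ := T.ne_bot_of_dvd_card hdvd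
    haveI hnt : Nontrivial ↥(T : Subgroup Y) := (Subgroup.nontrivial_iff_ne_bot _).mpr hne
    exact hW.1 ↥(T : Subgroup Y) T.2 hnt h2
  · rw [Subgroup.characteristic_iff_map_eq]
    intro ψ
    ext y
    constructor
    · rintro ⟨_, ⟨t, ht, rfl⟩, rfl⟩
      have h3 := hW.2 ↥(T : Subgroup Y) ↥(T : Subgroup Y) T.2 ((φ.trans ψ).trans φ.symm)
      have h4 : ((φ.trans ψ).trans φ.symm) t ∈ W ↥(T : Subgroup Y) := by
        rw [← h3]; exact ⟨t, ht, rfl⟩
      refine ⟨_, h4, ?_⟩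
      simp
    · rintro ⟨t, ht, rfl⟩
      have h3 := hW.2 ↥(T : Subgroup Y) ↥(T : Subgroup Y) T.2 ((φ.trans ψ.symm).trans φ.symm)
      have h4 : ((φ.trans ψ.symm).trans φ.symm) t ∈ W ↥(T : Subgroup Y) := by
        rw [← h3]; exact ⟨t, ht, rfl⟩
      refine ⟨φ (((φ.trans ψ.symm).trans φ.symm) t), ⟨_, h4, rfl⟩, ?_⟩
      simp

end QdCtl

end Cfsg.Agent.Helper13
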