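import Mathlib

set_option autoImplicit false

namespace Cfsg.Agent.Helper13

/-- the fixed points of `D` on an abelian group `M` have a complement in the fixed points of `S`,
when `|D : S|` is prime to `|M|` (kernel of the trace map) -/
theorem exists_trace_complement {D M : Type*} [Group D] [Finite D] [CommGroup M] [Finite M]
    (c : D → M →* M) (hc : ∀ x y m, c (x * y) m = c x (c y m)) (S : Subgroup D)
    (hcop : Nat.Coprime S.index (Nat.card M)) :
    ∃ K : Subgroup M, (∀ k ∈ K, ∀ s ∈ S, c s k = k) ∧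
      (∀ w ∈ K, (∀ d : D, c d w = w) → w = 1) ∧
      (∀ v : M, (∀ s ∈ S, c s v = v) →
        ∃ w k : M, (∀ d : D, c d w = w) ∧ k ∈ K ∧ v = w * k) := by
  classical
  haveI := Fintype.ofFinite (D ⧸ S)
  obtain ⟨tr, htr⟩ : ∃ tr : M →* M, ∀ v, tr v = ∏ q : D ⧸ S, c q.out v :=
    ⟨∏ q : D ⧸ S, c q.out, fun v => MonoidHom.finset_prod_apply _ _ _⟩
  let FS : Subgroup M :=
    { carrier := {v | ∀ s ∈ S, c s v = v}
      mul_mem' := fun {a b} ha hb s hs => by rw [map_mul, ha s hs, hb s hs]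
      one_mem' := fun s _ => map_one _
      inv_mem' := fun {a} ha s hs => by rw [map_inv, ha s hs] }
  have hFS : ∀ v, v ∈ FS ↔ ∀ s ∈ S, c s v = v := fun v => Iff.rfl
  have hfix : ∀ v, (∀ s ∈ S, c s v = v) → ∀ d : D, c d (tr v) = tr v := by
    intro v hv d
    have hf : ∀ (d : D) (s : D), s ∈ S → c (d * s) v = c d v := fun d s hs => by rw [hc, hv s hs]
    have hout : ∀ (y : D) (q : D ⧸ S), c (y • q).out v = c (y * q.out) v := by
      intro y q
      obtain ⟨h, hh⟩ := QuotientGroup.mk_out_eq_mul S (y * q.out)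
      have : y • q = QuotientGroup.mk (y * q.out) := by
        conv_lhs => rw [← QuotientGroup.out_eq' q]
        rfl
      rw [this, hh, hf _ _ h.2]
    rw [htr, map_prod]
    have : ∀ q : D ⧸ S, c d (c q.out v) = c (d • q).out v := fun q => by rw [hout, hc]
    simp_rw [this]
    exact Equiv.prod_comp (MulAction.toPerm d : (D ⧸ S) ≃ (D ⧸ S)) (fun q : D ⧸ S => c q.out v)
  have hpow : ∀ w, (∀ d : D, c d w = w) → tr w = w ^ S.index := by
    intro w hw
    rw [htr]
    simp_rw [hw]
    rw [Finset.prod_const, Finset.card_univ, Subgroup.index, Nat.card_eq_fintype_card]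
  have hb : (1 : ℤ) = (S.index : ℤ) * Nat.gcdA S.index (Nat.card M) +
      (Nat.card M : ℤ) * Nat.gcdB S.index (Nat.card M) := by
    have := Nat.gcd_eq_gcd_ab S.index (Nat.card M)
    rw [Nat.Coprime.gcd_eq_one hcop] at this
    exact_mod_cast this
  have hbz : ∀ x : M, (x ^ S.index) ^ (Nat.gcdA S.index (Nat.card M)) = x := by
    intro x
    have h0 : x ^ ((S.index : ℤ) * Nat.gcdA S.index (Nat.card M) +
        (Nat.card M : ℤ) * Nat.gcdB S.index (Nat.card M)) = x := by rw [← hb, zpow_one]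
    rw [zpow_add, zpow_mul, zpow_mul, zpow_natCast, zpow_natCast, pow_card_eq_one', one_zpow,
      mul_one] at h0
    exact h0
  refine ⟨FS ⊓ tr.ker, ?_, ?_, ?_⟩
  · intro k hk s hs
    exact (hFS k).mp hk.1 s hs
  · intro w hw hwD
    have h1 : w ^ S.index = 1 := by rw [← hpow w hwD]; exact MonoidHom.mem_ker.mp hw.2
    have h2 := hbz w
    rw [h1, one_zpow] at h2
    exact h2.symm
  · intro v hv
    have hD := hfix v hv
    have hwD : ∀ d : D, c d ((tr v) ^ (Nat.gcdA S.index (Nat.card M))) =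
        (tr v) ^ (Nat.gcdA S.index (Nat.card M)) := fun d => by rw [map_zpow, hD d]
    refine ⟨(tr v) ^ (Nat.gcdA S.index (Nat.card M)),
      v * ((tr v) ^ (Nat.gcdA S.index (Nat.card M)))⁻¹, hwD, Subgroup.mem_inf.mpr ⟨?_, ?_⟩, ?_⟩
    · rw [hFS]
      intro s hs
      rw [map_mul, map_inv, hwD s, hv s hs]
    · rw [MonoidHom.mem_ker, map_mul, map_inv, hpow _ hwD]
      have e : ((tr v) ^ (Nat.gcdA S.index (Nat.card M))) ^ S.index = tr v := by
        rw [← zpow_natCast, ← zpow_mul, mul_comm, zpow_mul, zpow_natCast]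
        exact hbz (tr v)
      rw [e, mul_inv_cancel]
    · rw [mul_comm v, mul_inv_cancel_left]

end Cfsg.Agent.Helper13
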